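import Cfsg.Agent.TwoGenClassical.OrthTwoGen
import Cfsg.Agent.OrthGeo.QuadOdd

/-! Two-generation of the odd-dimensional orthogonal groups. -/

set_option autoImplicit false
set_option linter.unusedSectionVars false
set_option linter.style.haveILetI false

namespace CfsgLib.TwoGenClassical

open Cfsg.Geo CfsgLib.OrthGeo
open scoped Matrix MatrixGroups

variable {F : Type*} [Field F]

theorem polar_odd (m : ℕ) (u v : Unit ⊕ (Fin m ⊕ Fin m) → F) :
    QuadraticMap.polar (Cfsg.quadFormOdd m F) u v = 2 * (u (.inl ()) * v (.inl ())) +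
      ∑ i, (u (.inr (.inl i)) * v (.inr (.inr i)) + u (.inr (.inr i)) * v (.inr (.inl i))) := by
  simp only [QuadraticMap.polar, Cfsg.quadFormOdd, Pi.add_apply, add_mul, mul_add, Finset.sum_add_distrib,
    mul_comm (v (.inr (.inl _)))]
  ring

/-- The standard frame of the odd orthogonal space. -/
def oddData (m : ℕ) (hm : 2 ≤ m) (h2 : (2 : F) ≠ 0) : OData (Cfsg.quadFormOdd m F) m where
  hQ := isNondegenerateQuadraticForm_quadFormOdd m h2
  dim := by simp; omega
  z p := Pi.single (.inr p) 1
  sing p := by rcases p with i | i <;> simp [Cfsg.quadFormOdd, Pi.single_apply]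
  pairing p q := by
    rw [bform_apply, polar_odd]
    rcases p with i | i <;> rcases q with j | j <;>
      simp [opp, Pi.single_apply, eq_comm]

theorem odd_two_generated [Finite F] (m : ℕ) (hm : 2 ≤ m) (h2 : (2 : F) ≠ 0) :
    ∃ a b : ↥(omegaGL (Cfsg.quadFormOdd m F)),
      Subgroup.closure ({a, b} : Set ↥(omegaGL (Cfsg.quadFormOdd m F))) = ⊤ := by
  classical
  haveI : NeZero m := ⟨by omega⟩
  set D := oddData m hm h2
  obtain ⟨k, hk, hord⟩ := exists_gen (F := F)
  have hk1 : (k : F) ≠ 1 := by
    intro e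
    rw [e, orderOf_one] at hord
    have h3 : 3 ≤ Nat.card F := by
      haveI : Fintype F := Fintype.ofFinite F
      rw [Nat.card_eq_fintype_card]
      have h1 : (-1 : F) ≠ 1 := fun h => h2 (by linear_combination -h)
      have : ({0, 1, -1} : Finset F).card = 3 := by
        rw [Finset.card_insert_of_notMem (by simp), Finset.card_insert_of_notMem
          (by simpa using fun h => h1 h.symm), Finset.card_singleton]
      exact this ▸ Finset.card_le_univ _
    omega
  set v1 : Unit ⊕ (Fin m ⊕ Fin m) → F := Pi.single (.inl ()) 1 with hv1def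
  have hB : ∀ x p, bform D.hQ (D.z p) x = x (.inr (opp p)) := by
    intro x p
    rw [bform_apply, polar_odd]
    rcases p with i | i <;> simp [D, oddData, opp, Pi.single_apply]
  have hv : Cfsg.quadFormOdd m F v1 = 1 := by simp [Cfsg.quadFormOdd, hv1def]
  have hp : Frame.Perp (oFrame D) v1 := (perp_iff D).2 fun p => by rw [hB, hv1def]; simp
  have hperp : ∀ x, Frame.Perp (oFrame D) x → x = x (.inl ()) • v1 := by
    intro x hx
    funext j
    rcases j with j | j
    · simp [hv1def]
    · have := (perp_iff D).1 hx (opp j)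
      rw [hB, opp_opp] at this
      simp [hv1def, this]
  refine ⟨oB D ⟨v1, hp⟩ * oShift D hv,
    (oFrame D).X (Sum.inl 0) (Sum.inr (secondIdx m)) 1 * oTor D (k : F), ?_⟩
  obtain ⟨hwS, hP, hline⟩ := orth_core D hv hp hm hk hk1 ⟨v1, hp⟩ _ rfl
  refine orth_finish D hv hp hm hwS hP hp hline (fun x hx => ⟨x (.inl ()), 0, ?_⟩) ?_
  · rw [zero_smul, add_zero]; exact hperp x hx
  · intro s y hs _ hs0 hQs _
    exfalso
    have e := hperp s hs
    rw [e, q_smul D.hQ, hv, mul_one] at hQs
    exact hs0 (by rw [e, pow_eq_zero_iff two_ne_zero |>.1 hQs, zero_smul])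

end CfsgLib.TwoGenClassical
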