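import Cfsg.Agent.TwoGenClassical.Cycle
import Cfsg.Agent.OrthGeo.RootLines

/-!
Two-generation of orthogonal groups: the frame inside `Ω`, reflection pairs, and the criterion
reducing generation to root elements along the frame.
-/

set_option autoImplicit false
set_option linter.unusedSectionVars false
set_option linter.style.haveILetI false

namespace CfsgLib.TwoGenClassical

open Cfsg.Geo CfsgLib.OrthGeo
open scoped Matrix commutatorElement MatrixGroups

variable {ι : Type} [Fintype ι] [DecidableEq ι] {F : Type*} [Field F] [Finite F]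
variable {Q : (ι → F) → F}

/-- A hyperbolic frame of a quadratic space of dimension at least five. -/
structure OData (Q : (ι → F) → F) (n : ℕ) where
  hQ : IsNondegenerateQuadraticForm Q
  dim : 5 ≤ Fintype.card ι
  z : Idx n → ι → F
  sing : ∀ p, Q (z p) = 0
  pairing : ∀ p q, bform hQ (z p) (z q) = if q = opp p then 1 else 0

theorem pairVal_one {n : ℕ} (p : Idx n) : pairVal (1 : F) p = 1 := by cases p <;> rfl

/-- The root element `x ↦ x + t b(x,z_p) z_q - t b(x,z_q) z_p` inside `Ω`. -/
noncomputable def oX {n : ℕ} (D : OData Q n) (p q : Idx n) (t : F) : ↥(omegaGL Q) :=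
  if h : q ≠ opp p then
    ⟨eichler D.hQ (D.sing p) (w := (-t) • D.z q) (by rw [map_smul, D.pairing, if_neg h, smul_zero]),
      eichler_mem_omega D.hQ D.dim _ _⟩
  else 1

/-- The frame of an orthogonal group. -/
noncomputable def oFrame {n : ℕ} (D : OData Q n) : Frame F ι (omegaGL Q) n where
  z := D.z
  B x y := bform D.hQ x y
  σ := RingHom.id F
  ε := 1
  act := (omegaGL Q).subtype
  inj := Subtype.coe_injective
  sigma_sigma _ := rfl
  eps_sq := one_mul 1
  sigma_eps := rfl
  add_left x x' y := by rw [map_add, LinearMap.add_apply]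
  smul_left a x y := by rw [map_smul, LinearMap.smul_apply, smul_eq_mul]
  swap x y := by rw [RingHom.id_apply, one_mul]; exact b_symm D.hQ y x
  pairing p q := by rw [D.pairing, pairVal_one]
  iso g x y := isometry_b D.hQ (omegaGL_le g.2) x y
  X := oX D
  X_act p q t x h := by
    rw [oX, dif_pos h.2]
    simp only [Subgroup.coe_subtype, eichler_mulVec D.hQ, q_smul D.hQ, D.sing, mul_zero, map_smul,
      LinearMap.smul_apply, smul_eq_mul, RingHom.id_apply, one_mul, zero_mul, zero_smul, sub_zero,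
      b_symm D.hQ (D.z q) x, b_symm D.hQ (D.z p) x]
    module

variable {n : ℕ} (D : OData Q n)

theorem oFrame_B (x y : ι → F) : (oFrame D).B x y = bform D.hQ x y := rfl

theorem oFrame_z (p : Idx n) : (oFrame D).z p = D.z p := rfl

theorem oFrame_v (g : ↥(omegaGL Q)) (x : ι → F) :
    Frame.v (oFrame D) g x = ((g : GL ι F) : Matrix ι ι F) *ᵥ x := rfl

theorem oFrame_sigma (a : F) : (oFrame D).σ a = a := rfl

theorem perp_iff {x : ι → F} : Frame.Perp (oFrame D) x ↔ ∀ p, bform D.hQ (D.z p) x = 0 :=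
  forall_congr' fun p => by rw [oFrame_B, oFrame_z, b_symm D.hQ]

include D in
theorem oQ_apply (g : ↥(omegaGL Q)) (x : ι → F) : Q (((g : GL ι F) : Matrix ι ι F) *ᵥ x) = Q x :=
  mem_isometryGroup.1 (omegaGL_le g.2) x

section Reflection

variable (hQ : IsNondegenerateQuadraticForm Q)

theorem conj_reflection' {g : GL ι F} (hg : g ∈ Cfsg.isometryGroup F Q) {a b : ι → F} (ha : Q a ≠ 0)
    (hb : Q b ≠ 0) (h : (g : Matrix ι ι F) *ᵥ a = b) :
    g * reflection hQ ha * g⁻¹ = reflection hQ hb := by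
  refine gl_ext fun x => ?_
  obtain ⟨y, rfl⟩ : ∃ y, x = (g : Matrix ι ι F) *ᵥ y := ⟨_, (mulVec_inv_cancel g x).symm⟩
  rw [Units.val_mul, Units.val_mul, ← Matrix.mulVec_mulVec, ← Matrix.mulVec_mulVec, inv_mulVec_cancel,
    reflection_mulVec hQ, reflection_mulVec hQ, Matrix.mulVec_sub, Matrix.mulVec_smul, h, ← h,
    mem_isometryGroup.1 hg, isometry_b hQ hg]

theorem reflection_inv {a : ι → F} (ha : Q a ≠ 0) : (reflection hQ ha)⁻¹ = reflection hQ ha :=
  Units.ext rfl

/-- Products of two reflections at vectors with the same value of `Q` lie in `Ω`. -/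
theorem reflection_pair_mem (hn : 5 ≤ Fintype.card ι) {a b : ι → F} (ha : Q a ≠ 0) (hb : Q b ≠ 0)
    (h : Q a = Q b) : reflection hQ hb * reflection hQ ha ∈ omegaGL Q := by
  have h0 : a ≠ 0 := by rintro rfl; exact ha (q_zero hQ)
  have h0' : b ≠ 0 := by rintro rfl; exact hb (q_zero hQ)
  obtain ⟨g, hg, hga⟩ := exists_map_value hQ hn h0 h0' h
  have hgI := eichlerGroup_le_isometry hQ hg
  have e : ⁅g, reflection hQ ha⁆ = reflection hQ hb * reflection hQ ha := by
    rw [commutatorElement_def, conj_reflection' hQ hgI ha hb hga, reflection_inv]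
  exact e ▸ commutator_mem_omegaGL hgI (reflection_mem hQ ha)

end Reflection

/-- The reflection pair as an element of `Ω`. -/
noncomputable def reflPair {a b : ι → F} (ha : Q a = 1) (hb : Q b = 1) : ↥(omegaGL Q) :=
  ⟨reflection D.hQ (a := a) (by rw [ha]; exact one_ne_zero) * reflection D.hQ (a := b) (by rw [hb]; exact one_ne_zero),
    reflection_pair_mem D.hQ D.dim _ _ (hb.trans ha.symm)⟩

theorem reflPair_v {a b : ι → F} (ha : Q a = 1) (hb : Q b = 1) (x : ι → F) :
    Frame.v (oFrame D) (reflPair D ha hb) x =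
      x - bform D.hQ b x • b - bform D.hQ a (x - bform D.hQ b x • b) • a := by
  simp only [oFrame_v, reflPair, Units.val_mul, ← Matrix.mulVec_mulVec, reflection_mulVec D.hQ, ha, hb,
    inv_one, one_mul]

section Flip

variable [NeZero n]

/-- The last index. -/
def lastIdx (n : ℕ) [NeZero n] : Fin n := ⟨n - 1, Nat.sub_lt (NeZero.pos n) Nat.one_pos⟩

theorem val_eq_last {i : Fin n} (h : i.val + 1 = n) : i = lastIdx n :=
  Fin.ext (by simp [lastIdx]; omega)

theorem flipVec_value :
    Q (D.z (.inl (lastIdx n)) + D.z (.inr (lastIdx n))) = 1 := by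
  rw [q_add D.hQ, D.sing, D.sing, D.pairing]
  simp [opp]

/-- The flip of the last pair, paired with the reflection at a perpendicular vector of value one. -/
noncomputable def oFlip {v1 : ι → F} (hv : Q v1 = 1) : ↥(omegaGL Q) :=
  reflPair D (flipVec_value D) hv

theorem oFlip_z {v1 : ι → F} (hv : Q v1 = 1) (hp : Frame.Perp (oFrame D) v1) (p : Idx n) :
    Frame.v (oFrame D) (oFlip D hv) (D.z p) =
      D.z p - bform D.hQ (D.z (.inl (lastIdx n)) + D.z (.inr (lastIdx n))) (D.z p) •
        (D.z (.inl (lastIdx n)) + D.z (.inr (lastIdx n))) := by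
  have h0 : bform D.hQ v1 (D.z p) = 0 := hp p
  rw [oFlip, reflPair_v, h0, zero_smul, sub_zero]

theorem oFlip_isFlip {v1 : ι → F} (hv : Q v1 = 1) (hp : Frame.Perp (oFrame D) v1) :
    Frame.IsFlip (oFrame D) (oFlip D hv) := by
  constructor <;> intro i <;> by_cases hi : i.val + 1 = n
  · rw [if_pos hi, val_eq_last hi]
    refine ⟨-1, by simp, ?_⟩
    rw [oFrame_z, oFrame_z, oFlip_z D hv hp, map_add, LinearMap.add_apply, D.pairing, D.pairing]
    simp [opp]
  · rw [if_neg hi]
    refine ⟨1, one_ne_zero, ?_⟩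
    have hne : i ≠ lastIdx n := fun e => hi (by rw [e]; simp [lastIdx]; have := NeZero.pos n; omega)
    rw [oFrame_z, oFlip_z D hv hp, map_add, LinearMap.add_apply, D.pairing, D.pairing]
    simp [opp, hne]
  · rw [if_pos hi, val_eq_last hi]
    refine ⟨-1, by simp, ?_⟩
    rw [oFrame_z, oFrame_z, oFlip_z D hv hp, map_add, LinearMap.add_apply, D.pairing, D.pairing]
    simp [opp]
  · rw [if_neg hi]
    refine ⟨1, one_ne_zero, ?_⟩
    have hne : i ≠ lastIdx n := fun e => hi (by rw [e]; simp [lastIdx]; have := NeZero.pos n; omega)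
    rw [oFrame_z, oFlip_z D hv hp, map_add, LinearMap.add_apply, D.pairing, D.pairing]
    simp [opp, hne]

theorem oFlip_perp {v1 : ι → F} (hv : Q v1 = 1) (hp : Frame.Perp (oFrame D) v1) {x : ι → F}
    (hx : Frame.Perp (oFrame D) x) :
    Frame.v (oFrame D) (oFlip D hv) x = x - bform D.hQ v1 x • v1 := by
  have h : ∀ y, Frame.Perp (oFrame D) y →
      bform D.hQ (D.z (.inl (lastIdx n)) + D.z (.inr (lastIdx n))) y = 0 := fun y hy => by
    rw [map_add, LinearMap.add_apply, (perp_iff D).1 hy, (perp_iff D).1 hy, add_zero]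
  rw [oFlip, reflPair_v, map_sub, map_smul, h x hx, h v1 hp, smul_zero, sub_zero, zero_smul, sub_zero]

/-- The shift element. -/
noncomputable def oShift {v1 : ι → F} (hv : Q v1 = 1) : ↥(omegaGL Q) :=
  (oFrame D).cyc (n - 1) * oFlip D hv

theorem oShift_isShift {v1 : ι → F} (hv : Q v1 = 1) (hp : Frame.Perp (oFrame D) v1) :
    Frame.IsShift (oFrame D) (oShift D hv) :=
  Frame.isShift_cyc_flip _ (oFlip_isFlip D hv hp)

theorem oShift_perp {v1 : ι → F} (hv : Q v1 = 1) (hp : Frame.Perp (oFrame D) v1) {x : ι → F}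
    (hx : Frame.Perp (oFrame D) x) :
    Frame.v (oFrame D) (oShift D hv) x = x - bform D.hQ v1 x • v1 := by
  rw [oShift, Frame.v_mul, oFlip_perp D hv hp hx]
  refine Frame.cyc_perp _ (fun q => ?_) _
  rw [Frame.sub_left, Frame.smul_left, hx q, hp q, mul_zero, sub_zero]

end Flip

/-! ### Root elements in a subgroup of `Ω` -/

variable (S : Subgroup ↥(omegaGL Q))

/-- The image in the general linear group. -/
def img : Subgroup (GL ι F) := S.map (omegaGL Q).subtype

theorem img_le : img S ≤ Cfsg.isometryGroup F Q := by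
  rintro _ ⟨g, -, rfl⟩
  exact omegaGL_le g.2

theorem eIn_of_P {p q : Idx n} (h : Far p q) (hP : Frame.P (oFrame D) S p q) (c : F) :
    EIn Q (img S) (D.z p) (c • D.z q) := by
  refine eIn_of_mem D.hQ (D.sing p) (by rw [map_smul, D.pairing, if_neg h.2, smul_zero]) ?_
  refine ⟨_, hP (-c), ?_⟩
  show (Subgroup.subtype _) (oX D p q (-c)) = _
  rw [oX, dif_pos h.2]
  refine Units.ext ?_
  show eichlerMat Q (D.z p) ((- -c) • D.z q) = eichlerMat Q (D.z p) (c • D.z q)
  rw [neg_neg]

include D in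
theorem eIn_self {u : ι → F} (hu : Q u = 0) (c : F) : EIn Q (img S) u (c • u) := by
  have hw : bform D.hQ u (c • u) = 0 := by rw [map_smul, b_self_eq_zero D.hQ hu, smul_zero]
  refine eIn_of_mem D.hQ hu hw ?_
  rw [eichler_self_smul D.hQ hu c hw]
  exact one_mem _

include D in
theorem eIn_zero {u : ι → F} (hu : Q u = 0) : EIn Q (img S) u 0 := by
  simpa using eIn_self D S hu 0

theorem eIn_conj {g : ↥(omegaGL Q)} (hg : g ∈ S) {u w : ι → F} (hu : Q u = 0) (hw : bform D.hQ u w = 0)
    (h : EIn Q (img S) u w) :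
    EIn Q (img S) (Frame.v (oFrame D) g u) (Frame.v (oFrame D) g w) :=
  h.conj D.hQ hu hw (Subgroup.mem_map_of_mem _ hg) (omegaGL_le g.2)

theorem eIn_smul {u w : ι → F} {a : F} (hu : Q u = 0) (hw : bform D.hQ u w = 0)
    (h : EIn Q (img S) (a • u) w) : EIn Q (img S) u (a • w) := by
  have h1 : Q (a • u) = 0 := by rw [q_smul D.hQ, hu, mul_zero]
  have h2 : bform D.hQ (a • u) w = 0 := by rw [map_smul, LinearMap.smul_apply, hw, smul_zero]
  have h3 : bform D.hQ u (a • w) = 0 := by rw [map_smul, hw, smul_zero]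
  have := h.mem D.hQ h1 h2
  rw [eichler_smul D.hQ a h1 h2 (hu := hu) (hcw := h3)] at this
  exact eIn_of_mem D.hQ hu h3 this

include D in
theorem eIn_sum {u : ι → F} (hu : Q u = 0) {α : Type*} (T : Finset α) (f : α → ι → F)
    (h : ∀ i ∈ T, bform D.hQ u (f i) = 0 ∧ EIn Q (img S) u (f i)) :
    EIn Q (img S) u (∑ i ∈ T, f i) := by
  classical
  induction T using Finset.induction with
  | empty => simpa using eIn_zero D S hu
  | insert i T hi ih =>
    rw [Finset.sum_insert hi]
    refine EIn.add D.hQ (h i (Finset.mem_insert_self i T)).2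
      (ih fun j hj => h j (Finset.mem_insert_of_mem hj)) hu (h i (Finset.mem_insert_self i T)).1 ?_
    rw [map_sum]
    exact Finset.sum_eq_zero fun j hj => (h j (Finset.mem_insert_of_mem hj)).1

variable [NeZero n]

/-- Perpendicular root vectors move along the shift. -/
theorem perp_all_of_one {g : ↥(omegaGL Q)} (hg : Frame.IsShift (oFrame D) g) (hgS : g ∈ S) {j : ℕ}
    (h0 : ∀ x, Frame.Perp (oFrame D) x → EIn Q (img S) (D.z (pos n j)) x) :
    ∀ p x, Frame.Perp (oFrame D) x → EIn Q (img S) (D.z p) x := by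
  have hperp : ∀ x, Frame.Perp (oFrame D) x → Frame.Perp (oFrame D) (Frame.v (oFrame D) g⁻¹ x) := by
    intro x hx
    refine Frame.perp_map _ (fun q => ?_) hx
    obtain ⟨k, -, rfl⟩ := pos_surj q
    exact ⟨_, Frame.Maps.inv _ (hg k)⟩
  have step : ∀ k, (∀ x, Frame.Perp (oFrame D) x → EIn Q (img S) (D.z (pos n k)) x) →
      ∀ x, Frame.Perp (oFrame D) x → EIn Q (img S) (D.z (pos n (k + 1))) x := by
    intro k hk x hx
    obtain ⟨a, ha, e⟩ := hg k
    have hy := hperp _ hx
    set y := Frame.v (oFrame D) g⁻¹ x with hydef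
    have hy' : Frame.Perp (oFrame D) (a⁻¹ • y) := fun p => by rw [Frame.smul_left, hy p, mul_zero]
    have h1 := eIn_conj D S hgS (D.sing _) ((perp_iff D).1 hy' _) (hk _ hy')
    rw [← oFrame_z, e, Frame.v_smul, oFrame_z] at h1
    have e2 : Frame.v (oFrame D) g y = x := by
      rw [hydef, ← Frame.v_mul, mul_inv_cancel, Frame.v_one]
    rw [e2] at h1
    have h2 := eIn_smul D S (D.sing _) (by rw [map_smul, (perp_iff D).1 hx, smul_zero]) h1
    rwa [smul_smul, mul_inv_cancel₀ ha, one_smul] at h2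
  have all : ∀ i x, Frame.Perp (oFrame D) x → EIn Q (img S) (D.z (pos n (j + i))) x := by
    intro i
    induction i with
    | zero => exact h0
    | succ i ih => exact step _ ih
  intro p x hx
  obtain ⟨k, hk, rfl⟩ := pos_surj p
  have hj := mod_lt' n j
  have := all (k + 2 * n - j % (2 * n)) x hx
  rwa [show pos n (j + (k + 2 * n - j % (2 * n))) = pos n k from pos_eq_iff.2 (by
    rw [Nat.add_mod, ← Nat.mod_mod j (2 * n), ← Nat.add_mod, Nat.mod_mod,
      show j % (2 * n) + (k + 2 * n - j % (2 * n)) = k + 2 * n by omega, Nat.add_mod_right])] at this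

/-- Pair root groups and perpendicular root vectors generate `Ω`. -/
theorem orth_eq_top (hP : ∀ p q, Far p q → Frame.P (oFrame D) S p q)
    (hperp : ∀ p x, Frame.Perp (oFrame D) x → EIn Q (img S) (D.z p) x)
    (hplane : ∀ s y, Frame.Perp (oFrame D) s → Frame.Perp (oFrame D) y → s ≠ 0 → Q s = 0 →
      bform D.hQ s y = 0 → ∃ c : F, y = c • s) :
    S = ⊤ := by
  set R : Set (ι → F) := Set.range D.z ∪ {s | Frame.Perp (oFrame D) s ∧ s ≠ 0 ∧ Q s = 0} with hR
  have hsplit : ∀ (u w : ι → F), Q u = 0 → bform D.hQ u w = 0 →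
      (∀ q c, bform D.hQ w (D.z (opp q)) = c → c = 0 ∨
        (bform D.hQ u (D.z q) = 0 ∧ EIn Q (img S) u (c • D.z q))) →
      (∀ y, Frame.Perp (oFrame D) y → bform D.hQ u y = 0 → EIn Q (img S) u y) →
      EIn Q (img S) u w := by
    intro u w hu hw hf hp
    have hterm : ∀ q, bform D.hQ u ((bform D.hQ w (D.z (opp q))) • D.z q) = 0 ∧
        EIn Q (img S) u ((bform D.hQ w (D.z (opp q))) • D.z q) := by
      intro q
      rcases hf q _ rfl with h | ⟨h, h'⟩
      · rw [h, zero_smul, map_zero]; exact ⟨rfl, eIn_zero D S hu⟩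
      · exact ⟨by rw [map_smul, h, smul_zero], h'⟩
    have e := Frame.eq_frame_add_perp (oFrame D) w
    simp only [oFrame_B, oFrame_z, show (oFrame D).ε = (1 : F) from rfl, pairVal_one, div_one] at e
    have hsum : bform D.hQ u (∑ q, (bform D.hQ w (D.z (opp q))) • D.z q) = 0 := by
      rw [map_sum]; exact Finset.sum_eq_zero fun q _ => (hterm q).1
    have hpp : bform D.hQ u (Frame.perpPart (oFrame D) w) = 0 := by
      rw [e, map_add, hsum, zero_add] at hw; exact hw
    rw [e]
    exact EIn.add D.hQ (eIn_sum D S hu _ _ fun q _ => hterm q)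
      (hp _ (Frame.perp_perpPart _ w) hpp) hu hsum hpp
  have hle : omegaGL Q ≤ img S := by
    refine omega_le_of_root_vectors D.hQ D.dim (img_le S) R ?_ ?_
    · rintro u (⟨p, rfl⟩ | ⟨hs, hs0, hsQ⟩)
      · refine ⟨D.sing p, fun w hw => hsplit _ w (D.sing p) hw (fun q c hc => ?_) fun y hy _ => hperp p y hy⟩
        by_cases hq : q = opp p
        · left
          rw [← hc, hq, opp_opp, b_symm D.hQ]; exact hw
        · right
          refine ⟨by rw [D.pairing, if_neg hq], ?_⟩
          by_cases hqp : q = p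
          · subst hqp; exact eIn_self D S (D.sing q) c
          · exact eIn_of_P D S ⟨hqp, hq⟩ (hP p q ⟨hqp, hq⟩) c
      · refine ⟨hsQ, fun w hw => hsplit u w hsQ hw (fun q c _ => Or.inr ⟨?_, ?_⟩) fun y hy hb => ?_⟩
        · rw [b_symm D.hQ]; exact (perp_iff D).1 hs q
        · have hcs : Frame.Perp (oFrame D) (c • u) := fun r => by rw [Frame.smul_left, hs r, mul_zero]
          have h1 := (hperp q (c • u) hcs).swap D.hQ (D.sing q) (by rw [q_smul D.hQ, hsQ, mul_zero])
            ((perp_iff D).1 hcs q)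
          exact eIn_smul D S hsQ (by rw [b_symm D.hQ]; exact (perp_iff D).1 hs q) h1
        · obtain ⟨c, rfl⟩ := hplane u y hs hy hs0 hsQ hb
          exact eIn_self D S hsQ c
    · intro u hu hu0
      by_cases h : ∃ p, bform D.hQ (D.z p) u ≠ 0
      · obtain ⟨p, hp⟩ := h
        refine ⟨D.z p, Or.inl ⟨p, rfl⟩, D.z (opp p), Or.inl ⟨opp p, rfl⟩, ?_, hp⟩
        rw [D.pairing, if_pos rfl]; exact one_ne_zero
      push Not at h
      have hup : Frame.Perp (oFrame D) u := (perp_iff D).2 h
      obtain ⟨v, -, huv⟩ := exists_partner D.hQ hu hu0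
      have e := Frame.eq_frame_add_perp (oFrame D) v
      set p' := Frame.perpPart (oFrame D) v with hp'
      have hp1 : bform D.hQ u p' = 1 := by
        rw [e, map_add, map_sum, Finset.sum_eq_zero fun q _ => by
          simp only [oFrame_z]; rw [map_smul, show bform D.hQ u (D.z q) = 0 from (b_symm D.hQ _ _).trans (h q), smul_zero],
          zero_add] at huv
        exact huv
      have hp'P : Frame.Perp (oFrame D) p' := Frame.perp_perpPart _ v
      have hwP : Frame.Perp (oFrame D) (p' - Q p' • u) := fun r => by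
        rw [Frame.sub_left, Frame.smul_left, hp'P r, hup r, mul_zero, sub_zero]
      have hwu : bform D.hQ (p' - Q p' • u) u = 1 := by
        rw [map_sub, map_smul, LinearMap.sub_apply, LinearMap.smul_apply, b_self_eq_zero D.hQ hu,
          b_symm D.hQ, hp1, smul_zero, sub_zero]
      refine ⟨p' - Q p' • u, Or.inr ⟨hwP, ?_, ?_⟩, u, Or.inr ⟨hup, hu0, hu⟩, by rw [hwu]; exact one_ne_zero,
        by rw [hwu]; exact one_ne_zero⟩
      · intro e0
        rw [e0, map_zero, LinearMap.zero_apply] at hwu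
        exact zero_ne_one hwu
      · rw [q_sub D.hQ, q_smul D.hQ, hu, map_smul, smul_eq_mul, b_symm D.hQ, hp1]; ring
  refine (Subgroup.eq_top_iff' S).2 fun g => ?_
  obtain ⟨g', hg', e⟩ := hle g.2
  exact (Subtype.ext e : g' = g) ▸ hg'

/-- Transfer to the commutator subgroup of the isometry group. -/
theorem two_generated_omega {a b : ↥(omegaGL Q)} (h : Subgroup.closure ({a, b} : Set ↥(omegaGL Q)) = ⊤) :
    ∃ x y : ↥(Cfsg.Omega F Q), Subgroup.closure ({x, y} : Set ↥(Cfsg.Omega F Q)) = ⊤ := by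
  let e : ↥(Cfsg.Omega F Q) ≃* ↥(omegaGL Q) :=
    (Cfsg.Omega F Q).equivMapOfInjective (Cfsg.isometryGroup F Q).subtype Subtype.coe_injective
  refine ⟨e.symm a, e.symm b, ?_⟩
  have h1 := congrArg (Subgroup.map e.symm.toMonoidHom) h
  rw [MonoidHom.map_closure, Set.image_pair,
    Subgroup.map_top_of_surjective e.symm.toMonoidHom e.symm.surjective] at h1
  exact h1

end CfsgLib.TwoGenClassical
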