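import Cfsg.Agent.TwoGenClassical.OrthCore

/-! Two-generation of orthogonal groups: the two generators. -/

set_option autoImplicit false
set_option linter.unusedSectionVars false
set_option linter.style.haveILetI false

namespace CfsgLib.TwoGenClassical

open Cfsg.Geo CfsgLib.OrthGeo
open scoped Matrix MatrixGroups

variable {ι : Type} [Fintype ι] [DecidableEq ι] {F : Type*} [Field F] [Finite F]
variable {Q : (ι → F) → F} {n : ℕ} [NeZero n] (D : OData Q n)

/-- The second index. -/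
def secondIdx (n : ℕ) [NeZero n] : Fin n := Fin.ofNat n 1

theorem pos_values (hn : 2 ≤ n) :
    pos n 0 = .inl (0 : Fin n) ∧ pos n 1 = .inl (secondIdx n) ∧ pos n n = .inr (0 : Fin n) ∧
      pos n (n + 1) = .inr (secondIdx n) := by
  have e1 : 1 % n = 1 := Nat.mod_eq_of_lt (by omega)
  have m0 : (0 : ℕ) % (2 * n) = 0 := Nat.zero_mod _
  have m1 : 1 % (2 * n) = 1 := Nat.mod_eq_of_lt (by omega)
  have mn : n % (2 * n) = n := Nat.mod_eq_of_lt (by omega)
  have mn1 : (n + 1) % (2 * n) = n + 1 := Nat.mod_eq_of_lt (by omega)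
  refine ⟨?_, ?_, ?_, ?_⟩
  · rw [pos_lt (by omega)]; simp [m0]
  · rw [pos_lt (by omega)]; simp [m1, secondIdx, Fin.ofNat, e1]
  · rw [pos_ge (by omega)]; simp [mn]
  · rw [pos_ge (by omega)]; simp [mn1, secondIdx, Fin.ofNat, e1]

theorem far01 (hn : 2 ≤ n) : Far (Sum.inl (0 : Fin n) : Idx n) (Sum.inr (secondIdx n)) := by
  have e1 : 1 % n = 1 := Nat.mod_eq_of_lt (by omega)
  exact ⟨by simp, by simp [opp, secondIdx, Fin.ext_iff, Fin.ofNat, e1]⟩

/-- The eigenvalues of the torus element. -/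
def torEig (n : ℕ) [NeZero n] (k : F) (p : Idx n) : F :=
  if p = .inl 0 then k else if p = .inl (secondIdx n) then k
  else if p = .inr 0 then k⁻¹ else if p = .inr (secondIdx n) then k⁻¹ else 1

theorem torEig_values (hn : 2 ≤ n) (k : F) :
    torEig n k (.inl 0) = k ∧ torEig n k (.inl (secondIdx n)) = k ∧ torEig n k (.inr 0) = k⁻¹ ∧
      torEig n k (.inr (secondIdx n)) = k⁻¹ := by
  have e1 : 1 % n = 1 := Nat.mod_eq_of_lt (by omega)
  have hne : secondIdx n ≠ 0 := by simp [secondIdx, Fin.ext_iff, Fin.ofNat, e1]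
  simp [torEig, hne]

/-- The torus element. -/
noncomputable def oTor (k : F) : ↥(omegaGL Q) :=
  (oFrame D).H (Sum.inl 0) (Sum.inr (secondIdx n)) k

theorem oTor_z (hn : 2 ≤ n) {k : F} (hk : k ≠ 0) (p : Idx n) :
    Frame.v (oFrame D) (oTor D k) ((oFrame D).z p) = torEig n k p • (oFrame D).z p := by
  have hf := far01 hn
  unfold torEig oTor
  by_cases h1 : p = Sum.inl 0
  · rw [if_pos h1, h1]; exact Frame.H_left _ hf hk
  by_cases h2 : p = Sum.inl (secondIdx n)
  · rw [if_neg h1, if_pos h2, h2]; exact Frame.H_opp_right _ hf hk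
  by_cases h3 : p = Sum.inr 0
  · rw [if_neg h1, if_neg h2, if_pos h3, h3]; exact Frame.H_opp_left _ hf hk
  by_cases h4 : p = Sum.inr (secondIdx n)
  · rw [if_neg h1, if_neg h2, if_neg h3, if_pos h4, h4]; exact Frame.H_right _ hf hk
  rw [if_neg h1, if_neg h2, if_neg h3, if_neg h4, one_smul]
  exact Frame.H_fix _ hf _ h1 h4 h3 h2

theorem oTor_perp (hn : 2 ≤ n) (k : F) {x : ι → F} (hx : Frame.Perp (oFrame D) x) :
    Frame.v (oFrame D) (oTor D k) x = x :=
  Frame.H_perp _ (far01 hn) _ hx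

/-- The perpendicular space of the frame. -/
def perpSub : Submodule F (ι → F) where
  carrier := {x | Frame.Perp (oFrame D) x}
  zero_mem' p := Frame.zero_left _ _
  add_mem' {x y} hx hy p := by rw [(oFrame D).add_left, hx p, hy p, add_zero]
  smul_mem' a x hx p := by rw [Frame.smul_left, hx p, mul_zero]

/-- The root element at the second frame vector. -/
noncomputable def oB (x : ↥(perpSub D)) : ↥(omegaGL Q) :=
  ⟨eichler D.hQ (D.sing (Sum.inl (secondIdx n))) (w := (x : ι → F)) ((perp_iff D).1 x.2 _),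
    eichler_mem_omega D.hQ D.dim _ _⟩

theorem oB_add (x y : ↥(perpSub D)) : oB D (x + y) = oB D x * oB D y := by
  refine Subtype.ext (Units.ext ?_)
  exact (eichlerMat_mul D.hQ (D.sing _) ((perp_iff D).1 x.2 _) ((perp_iff D).1 y.2 _)).symm

theorem oB_eIn {S : Subgroup ↥(omegaGL Q)} {x : ↥(perpSub D)} (h : oB D x ∈ S) :
    EIn Q (img S) (D.z (Sum.inl (secondIdx n))) (x : ι → F) :=
  ⟨_, ⟨_, h, rfl⟩, rfl⟩

theorem oB_conj {g : ↥(omegaGL Q)} {a : F} (hg : Frame.v (oFrame D) g (D.z (Sum.inl (secondIdx n))) =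
      a • D.z (Sum.inl (secondIdx n))) (x y : ↥(perpSub D))
    (hxy : (y : ι → F) = a • Frame.v (oFrame D) g (x : ι → F)) :
    g * oB D x * g⁻¹ = oB D y := by
  refine Subtype.ext ?_
  have hu : Q (a • D.z (Sum.inl (secondIdx n))) = 0 := by rw [q_smul D.hQ, D.sing, mul_zero]
  have hgx : bform D.hQ (D.z (Sum.inl (secondIdx n))) (x : ι → F) = 0 := (perp_iff D).1 x.2 _
  have hw : bform D.hQ (a • D.z (Sum.inl (secondIdx n))) (Frame.v (oFrame D) g (x : ι → F)) = 0 := by
    rw [← hg, oFrame_v, oFrame_v, isometry_b D.hQ (omegaGL_le g.2), hgx]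
  have hy : bform D.hQ (D.z (Sum.inl (secondIdx n))) (a • Frame.v (oFrame D) g (x : ι → F)) = 0 := by
    rw [← hxy]; exact (perp_iff D).1 y.2 _
  simp only [oB, Subgroup.coe_mul, Subgroup.coe_inv]
  rw [conj_eichler D.hQ (omegaGL_le g.2) _ _ hu hw hg rfl, eichler_smul D.hQ a hu hw (D.sing _) hy]
  exact eichler_congr D.hQ _ _ _ hxy.symm

/-- The pair root group is filled by conjugating with the torus and its shift. -/
theorem P_first_full (hn : 2 ≤ n) {k : Fˣ} (hk : ∀ u : Fˣ, u ∈ Submonoid.powers k)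
    {S : Subgroup ↥(omegaGL Q)} {w t0 : ↥(omegaGL Q)} (hw : Frame.IsShift (oFrame D) w) (hwS : w ∈ S)
    (htS : t0 ∈ S) (ht : ∀ p, Frame.v (oFrame D) t0 ((oFrame D).z p) = torEig n (k : F) p • (oFrame D).z p)
    (hA : (oFrame D).X (Sum.inl 0) (Sum.inr (secondIdx n)) 1 ∈ S) :
    Frame.P (oFrame D) S (pos n 0) (pos n (n + 1)) := by
  obtain ⟨p0, -, pn, pn1⟩ := pos_values hn
  have hfar := far01 hn
  have hz1 : w * t0 * w⁻¹ ∈ S := S.mul_mem (S.mul_mem hwS htS) (S.inv_mem hwS)
  have e0 : Frame.v (oFrame D) (w * t0 * w⁻¹) ((oFrame D).z (pos n 0)) =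
      torEig n (k : F) (pos n (2 * n - 1)) • (oFrame D).z (pos n 0) := by
    have h := hw (2 * n - 1)
    rw [show 2 * n - 1 + 1 = 0 + 2 * n by omega, pos_add_period] at h
    exact Frame.conj_eigen _ h (ht _)
  have e1 : Frame.v (oFrame D) (w * t0 * w⁻¹) ((oFrame D).z (pos n (n + 1))) =
      (k : F)⁻¹ • (oFrame D).z (pos n (n + 1)) := by
    have := Frame.conj_eigen _ (hw n) (ht (pos n n))
    rwa [show torEig n (k : F) (pos n n) = (k : F)⁻¹ by rw [pn]; exact (torEig_values hn _).2.2.1] at this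
  rw [p0] at e0 ⊢
  rw [pn1] at e1 ⊢
  have hval : torEig n (k : F) (pos n (2 * n - 1)) = (k : F)⁻¹ ∨ torEig n (k : F) (pos n (2 * n - 1)) = 1 := by
    have e : (2 * n - 1) % (2 * n) = 2 * n - 1 := Nat.mod_eq_of_lt (by omega)
    rw [pos_ge (by omega)]
    simp only [torEig, reduceCtorEq, if_false]
    split_ifs <;> simp
  intro t
  have hstab : ∀ a ∈ Frame.param (oFrame D) S hfar, ((k : F)⁻¹) ^ 2 * a ∈ Frame.param (oFrame D) S hfar := by
    intro a ha
    have h1 := Frame.param_scale _ hfar hz1 e0 e1 ha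
    rw [oFrame_sigma] at h1
    rcases hval with hv | hv
    · rw [hv] at h1
      convert h1 using 1
      ring
    · rw [hv, one_mul] at h1
      rw [hv] at e0
      have h2 := Frame.param_scale _ hfar hz1 e0 e1 h1
      rw [oFrame_sigma, one_mul] at h2
      convert h2 using 1
      ring
  have hj : ∀ j a, a ∈ Frame.param (oFrame D) S hfar →
      (((k : F)⁻¹) ^ 2) ^ j * a ∈ Frame.param (oFrame D) S hfar := by
    intro j
    induction j with
    | zero => simp
    | succ j ih => intro a ha; rw [pow_succ, mul_assoc]; exact ih _ (hstab a ha)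
  refine eq_top_of_squares _ (fun u hu a ha => ?_) (c := 1)
    (show (1 : F) ∈ Frame.param (oFrame D) S hfar from hA) one_ne_zero t
  obtain ⟨i, hi⟩ := (Submonoid.mem_powers_iff _ _).1 (hk (Units.mk0 u hu)⁻¹)
  have e : u ^ 2 = (((k : F)⁻¹) ^ 2) ^ i := by
    rw [← pow_mul, mul_comm 2 i, pow_mul, inv_pow, ← Units.val_pow_eq_pow_val, hi, Units.val_inv_eq_inv_val,
      Units.val_mk0, inv_inv]
  rw [e]
  exact hj i a ha

variable {v1 : ι → F} (hv : Q v1 = 1) (hp : Frame.Perp (oFrame D) v1)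
include hp

/-- Generation with a torus element: all fields with at least three elements. -/
theorem orth_core (hn : 2 ≤ n) {k : Fˣ} (hk : ∀ u : Fˣ, u ∈ Submonoid.powers k) (hk1 : (k : F) ≠ 1)
    (xB : ↥(perpSub D)) (S : Subgroup ↥(omegaGL Q))
    (hS : S = Subgroup.closure
        ({oB D xB * oShift D hv, (oFrame D).X (Sum.inl 0) (Sum.inr (secondIdx n)) 1 * oTor D (k : F)} : Set _)) :
    oShift D hv ∈ S ∧ (∀ p q, Far p q → Frame.P (oFrame D) S p q) ∧
      ∀ t : F, EIn Q (img S) (D.z (pos n 1)) (t • (xB : ι → F)) := by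
  classical
  haveI : Fintype F := Fintype.ofFinite F
  obtain ⟨p0, p1, pn, pn1⟩ := pos_values hn
  obtain ⟨t0v, t1v, -, t3v⟩ := torEig_values hn (k : F)
  have hk0 : (k : F) ≠ 0 := k.ne_zero
  have hfar := far01 hn
  set w := oShift D hv with hwdef
  have hw : Frame.IsShift (oFrame D) w := oShift_isShift D hv hp
  set z0 := oTor D (k : F) with hz0
  set A1 := (oFrame D).X (Sum.inl 0) (Sum.inr (secondIdx n)) 1 with hA1
  have hz : ∀ p, Frame.v (oFrame D) z0 ((oFrame D).z p) = torEig n (k : F) p • (oFrame D).z p :=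
    oTor_z D hn hk0
  have hzperp : ∀ x, Frame.Perp (oFrame D) x → Frame.v (oFrame D) z0 x = x := fun x hx => oTor_perp D hn _ hx
  have hAcomm : Commute A1 z0 := by
    have := Frame.X_conj _ hfar hfar (show Frame.v (oFrame D) z0 ((oFrame D).z (Sum.inl 0)) = (k : F) • _ by
        rw [hz, t0v]) (show Frame.v (oFrame D) z0 ((oFrame D).z (Sum.inr (secondIdx n))) = (k : F)⁻¹ • _ by
        rw [hz, t3v]) 1
    rw [oFrame_sigma, mul_one, mul_inv_cancel₀ hk0, mul_inv_eq_iff_eq_mul] at this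
    exact this.symm
  haveI : CharP F (ringChar F) := ringChar.charP F
  have hA1p : A1 ^ ringChar F = 1 := by
    have : ∀ j : ℕ, A1 ^ j = (oFrame D).X (Sum.inl 0) (Sum.inr (secondIdx n)) (j : F) := fun j => by
      induction j with
      | zero => rw [pow_zero, Nat.cast_zero, Frame.X_zero _ hfar]
      | succ j ih => rw [pow_succ, ih, Nat.cast_succ, Frame.X_add _ hfar]
    rw [this, ringChar.Nat.cast_ringChar, Frame.X_zero _ hfar]
  have hTpow : oTor D (k : F) ^ (Nat.card F - 1) = 1 := by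
    refine Frame.ext_frame (oFrame D) (fun p => ?_) fun x hx => ?_
    · have : ∀ j : ℕ, Frame.v (oFrame D) (oTor D (k : F) ^ j) ((oFrame D).z p) =
          torEig n (k : F) p ^ j • (oFrame D).z p := fun j => by
        induction j with
        | zero => simp
        | succ j ih =>
          rw [pow_succ, Frame.v_mul, oTor_z D hn hk0, Frame.v_smul, ih, smul_smul, ← pow_succ']
      rw [this, Frame.v_one]
      have hne : torEig n (k : F) p ≠ 0 := by simp only [torEig]; split_ifs <;> simp [hk0]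
      rw [Nat.card_eq_fintype_card, FiniteField.pow_card_sub_one_eq_one _ hne, one_smul]
    · have : ∀ j : ℕ, Frame.v (oFrame D) (oTor D (k : F) ^ j) x = x := fun j => by
        induction j with
        | zero => simp
        | succ j ih => rw [pow_succ, Frame.v_mul, oTor_perp D hn _ hx, ih]
      rw [this, Frame.v_one]
  have hco : (orderOf A1).Coprime (orderOf z0) := by
    refine Nat.Coprime.coprime_dvd_left (orderOf_dvd_of_pow_eq_one hA1p)
      (Nat.Coprime.coprime_dvd_right (orderOf_dvd_of_pow_eq_one hTpow) ?_)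
    obtain ⟨e, hpr, he⟩ := FiniteField.card F (ringChar F)
    rw [hpr.coprime_iff_not_dvd, Nat.card_eq_fintype_card, he]
    intro h
    have h1 : 1 ≤ ringChar F ^ (e : ℕ) := Nat.one_le_pow _ _ hpr.pos
    have h2 := Nat.dvd_sub (dvd_pow_self (ringChar F) e.ne_zero) h
    rw [Nat.sub_sub_self h1, Nat.dvd_one] at h2
    exact hpr.ne_one h2
  obtain ⟨hAS, hzS⟩ := mem_of_mul_mem S hAcomm (hS ▸ Subgroup.subset_closure (by simp)) hco
  have hyS : oB D xB * w ∈ S := hS ▸ Subgroup.subset_closure (by simp)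
  set z1 := w * z0 * w⁻¹ with hz1def
  have hz1eig : Frame.v (oFrame D) z1 (D.z (Sum.inl (secondIdx n))) = (k : F) • D.z (Sum.inl (secondIdx n)) := by
    have := Frame.conj_eigen _ (hw 0) (hz (pos n 0))
    rwa [p0, t0v, zero_add, p1, oFrame_z] at this
  have hz1perp : ∀ x, Frame.Perp (oFrame D) x → Frame.v (oFrame D) z1 x = x := by
    intro x hx
    have hwx : Frame.Perp (oFrame D) (Frame.v (oFrame D) w⁻¹ x) :=
      Frame.perp_map _ (fun q => by
        obtain ⟨j, -, rfl⟩ := pos_surj q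
        exact ⟨_, Frame.Maps.inv _ (hw j)⟩) hx
    rw [hz1def, Frame.v_mul _ (w * z0), Frame.v_mul _ w z0, hzperp _ hwx, ← Frame.v_mul, mul_inv_cancel,
      Frame.v_one]
  have hz0eig : Frame.v (oFrame D) z0 (D.z (Sum.inl (secondIdx n))) = (k : F) • D.z (Sum.inl (secondIdx n)) := by
    rw [← oFrame_z, hz, t1v]
  have hφ : ∀ x, z0 * oB D x * z0⁻¹ = oB D ((k : F) • x) := fun x =>
    oB_conj D hz0eig x _ (by rw [hzperp _ x.2]; rfl)
  have hψ : ∀ x, z1 * oB D x * z1⁻¹ = oB D ((k : F) • x) := fun x =>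
    oB_conj D hz1eig x _ (by rw [hz1perp _ x.2]; rfl)
  have hcomm : z0 * z1 = z1 * z0 := by
    have he : ∀ p, ∃ c, Frame.v (oFrame D) z1 ((oFrame D).z p) = c • (oFrame D).z p := fun p => by
      obtain ⟨p', hp'⟩ := Frame.IsShift.onto _ hw p
      exact ⟨_, Frame.conj_eigen _ hp' (hz p')⟩
    choose d' hd' using he
    refine Frame.commute_of_eigen _ _ d' hz hd' fun x hx => ?_
    rw [hz1perp x hx, hzperp x hx, hz1perp x hx]
  have hc := commutator_trick (oB D) (oB_add D) S hzS hyS rfl hcomm hφ hψ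
  have h0 : oB D (0 : ↥(perpSub D)) = 1 := by
    have := oB_add D 0 0; rw [add_zero] at this; exact left_eq_mul.1 this
  let T : AddSubgroup F :=
    { carrier := {t | oB D (t • xB) ∈ S}
      zero_mem' := by
        show oB D ((0 : F) • xB) ∈ S
        rw [zero_smul, h0]; exact S.one_mem
      add_mem' := fun {u u'} hu hu' => by
        show oB D ((u + u') • xB) ∈ S
        rw [add_smul, oB_add]; exact S.mul_mem hu hu'
      neg_mem' := fun {u} hu => by
        show oB D ((-u) • xB) ∈ S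
        have : oB D (-(u • xB)) * oB D (u • xB) = 1 := by rw [← oB_add, neg_add_cancel, h0]
        rw [show (-u) • xB = -(u • xB) from neg_smul u xB, eq_inv_of_mul_eq_one_left this]
        exact S.inv_mem hu }
  have hscale : ∀ b ∈ T, (k : F) * b ∈ T := fun b hb => by
    show oB D (((k : F) * b) • xB) ∈ S
    rw [mul_smul, ← hφ]
    exact S.mul_mem (S.mul_mem hzS hb) (S.inv_mem hzS)
  have hstart : -(((k : F) - 1) ^ 2) ∈ T := by
    show oB D ((-(((k : F) - 1) ^ 2)) • xB) ∈ S
    convert hc using 2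
    refine Subtype.ext ?_
    simp only [Submodule.coe_smul, Submodule.coe_add, Submodule.coe_sub, Submodule.coe_neg]
    module
  have hall : ∀ t, t ∈ T := eq_top_of_stable T (closure_gen k hk)
    (fun u hu b hb => by rw [Set.mem_singleton_iff.1 hu]; exact hscale b hb) hstart
    (neg_ne_zero.2 (pow_ne_zero 2 (sub_ne_zero.2 hk1)))
  have hB : oB D xB ∈ S := by
    have := hall 1
    change oB D ((1 : F) • xB) ∈ S at this
    rwa [one_smul] at this
  have hwS : w ∈ S := by
    have := S.mul_mem (S.inv_mem hB) hyS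
    rwa [inv_mul_cancel_left] at this
  refine ⟨hwS, Frame.P_all _ hw hwS hn (P_first_full D hn hk hw hwS hzS hz hAS), fun t => ?_⟩
  rw [p1]
  exact oB_eIn D (x := t • xB) (hall t)

/-- Generation over the field with two elements. -/
theorem orth_core_two (hn : 2 ≤ n) (h2 : Nat.card F = 2) (z3 : ↥(omegaGL Q)) (hz3 : z3 ^ 3 = 1)
    (hf0 : Frame.v (oFrame D) z3 (D.z (Sum.inl 0)) = D.z (Sum.inl 0))
    (hf1 : Frame.v (oFrame D) z3 (D.z (Sum.inr (secondIdx n))) = D.z (Sum.inr (secondIdx n)))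
    (S : Subgroup ↥(omegaGL Q))
    (hS : S = Subgroup.closure
        ({oShift D hv, (oFrame D).X (Sum.inl 0) (Sum.inr (secondIdx n)) 1 * z3} : Set _)) :
    oShift D hv ∈ S ∧ (∀ p q, Far p q → Frame.P (oFrame D) S p q) ∧ z3 ∈ S := by
  classical
  haveI : Fintype F := Fintype.ofFinite F
  obtain ⟨p0, p1, pn, pn1⟩ := pos_values hn
  have hfar := far01 hn
  have one_eq : ∀ t : F, t = 0 ∨ t = 1 := by
    intro t
    by_contra hne
    push Not at hne
    rw [Nat.card_eq_fintype_card] at h2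
    have : ({0, 1, t} : Finset F).card = 3 := by
      rw [Finset.card_insert_of_notMem (by simp [hne.1.symm]), Finset.card_insert_of_notMem
        (by simp [hne.2.symm]), Finset.card_singleton]
    have := Finset.card_le_univ ({0, 1, t} : Finset F)
    omega
  have hwS : oShift D hv ∈ S := hS ▸ Subgroup.subset_closure (by simp)
  set A1 := (oFrame D).X (Sum.inl 0) (Sum.inr (secondIdx n)) 1 with hA1
  have htwo : (1 : F) + 1 = 0 := by
    rcases one_eq (1 + 1) with h | h
    · exact h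
    · exact absurd (add_eq_left.1 h) one_ne_zero
  have hA2 : A1 ^ 2 = 1 := by rw [pow_two, hA1, ← Frame.X_add _ hfar, htwo, Frame.X_zero _ hfar]
  have hAcomm : Commute A1 z3 := by
    have := Frame.X_conj _ hfar hfar (show Frame.v (oFrame D) z3 ((oFrame D).z (Sum.inl 0)) = (1 : F) • _ by
        rw [one_smul]; exact hf0) (show Frame.v (oFrame D) z3 ((oFrame D).z (Sum.inr (secondIdx n))) =
        (1 : F) • _ by rw [one_smul]; exact hf1) 1
    rw [map_one, one_mul, one_mul, mul_inv_eq_iff_eq_mul] at this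
    exact this.symm
  obtain ⟨hAS, hzS⟩ := mem_of_mul_mem S hAcomm (hS ▸ Subgroup.subset_closure (by simp))
    (Nat.Coprime.coprime_dvd_left (orderOf_dvd_of_pow_eq_one hA2)
      (Nat.Coprime.coprime_dvd_right (orderOf_dvd_of_pow_eq_one hz3) (by norm_num)))
  refine ⟨hwS, Frame.P_all _ (oShift_isShift D hv hp) hwS hn ?_, hzS⟩
  rw [p0, pn1]
  intro t
  rcases one_eq t with rfl | rfl
  · rw [Frame.X_zero _ hfar]; exact S.one_mem
  · exact hAS

/-- The perpendicular root vectors of a frame vector are stable under the shift. -/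
theorem eIn_shift_stable (hn : 2 ≤ n) {S : Subgroup ↥(omegaGL Q)} (hwS : oShift D hv ∈ S)
    (hP : ∀ p q, Far p q → Frame.P (oFrame D) S p q) {x : ι → F} (hx : Frame.Perp (oFrame D) x)
    (h : ∀ t : F, EIn Q (img S) (D.z (pos n 1)) (t • x)) (t : F) :
    EIn Q (img S) (D.z (pos n 1)) (t • (x - bform D.hQ v1 x • v1)) := by
  have hw := oShift_isShift D hv hp
  obtain ⟨a, ha, e⟩ := hw 1
  set y := x - bform D.hQ v1 x • v1 with hy
  have hyP : ∀ c : F, Frame.Perp (oFrame D) (c • y) := fun c p => by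
    rw [Frame.smul_left, hy, Frame.sub_left, Frame.smul_left, hx p, hp p, mul_zero, sub_zero, mul_zero]
  have hxP : ∀ c : F, Frame.Perp (oFrame D) (c • x) := fun c p => by rw [Frame.smul_left, hx p, mul_zero]
  set u := D.z (pos n 2) with hudef
  set u' := D.z (pos n 1) with hu'def
  set W := t • y with hW
  have hwb : ∀ p, bform D.hQ (D.z p) W = 0 := (perp_iff D).1 (hyP t)
  have h2 : EIn Q (img S) u W := by
    have := eIn_conj D S hwS (D.sing _) ((perp_iff D).1 (hxP (a⁻¹ * t)) _) (h (a⁻¹ * t))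
    rw [Frame.v_smul, oShift_perp D hv hp hx, ← oFrame_z, e] at this
    have h' := eIn_smul D S (D.sing _) ((perp_iff D).1 (hyP (a⁻¹ * t)) _) this
    rwa [smul_smul, ← mul_assoc, mul_inv_cancel₀ ha, one_mul] at h'
  have hfar : Far (pos n 1) (pos n 2) := by
    refine pos_far (d := 1) ?_ ?_ <;> rw [Nat.mod_eq_of_lt (by omega)] <;> omega
  set g := (oFrame D).up (pos n 1) (pos n 2) 1
  have hgS : g ∈ S := hP _ _ hfar.oppR _
  have hgu : Frame.v (oFrame D) g u = u + u' := by
    rw [hudef, hu'def]; simpa [oFrame_z, g] using Frame.up_self (oFrame D) hfar 1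
  have hgW : Frame.v (oFrame D) g W = W := Frame.X_perp _ hfar.oppR _ (hyP t)
  have h3 : EIn Q (img S) (u + u') W := by
    have := eIn_conj D S hgS (D.sing _) (hwb _) h2
    rwa [hgu, hgW] at this
  have huu' : bform D.hQ u u' = 0 := by rw [hudef, hu'def, D.pairing, if_neg hfar.symm.2]
  have hQuu : Q (u + u') = 0 := by rw [q_add D.hQ, D.sing, D.sing, huu']; ring
  have hbuu : bform D.hQ (u + u') W = 0 := by rw [map_add, LinearMap.add_apply, hwb, hwb, add_zero]
  have hc : bform D.hQ u' ((Q W) • u) = 0 := by rw [map_smul, b_symm D.hQ, huu', smul_zero]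
  have h4 : EIn Q (img S) u' ((Q W) • u) := eIn_of_P D S hfar (hP _ _ hfar) _
  -- `E(u+u',W) = E(u,W) E(u',W) E(u', cu)`
  have hm := mul_mem (inv_mem (h2.mem D.hQ (D.sing _) (hwb _))) (mul_mem (h3.mem D.hQ hQuu hbuu)
    (h4.mem D.hQ (D.sing _) hc))
  refine eIn_of_mem D.hQ (D.sing _) (hwb _) ?_
  convert hm using 1
  rw [eq_inv_mul_iff_mul_eq]
  refine gl_ext fun z => ?_
  have e1 : bform D.hQ u W = 0 := hwb _
  have e2 : bform D.hQ u' W = 0 := hwb _
  have e3 : bform D.hQ W u = 0 := (b_symm D.hQ _ _).trans e1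
  have e4 : bform D.hQ W u' = 0 := (b_symm D.hQ _ _).trans e2
  have e5 : bform D.hQ u' u = 0 := (b_symm D.hQ _ _).trans huu'
  have e6 : bform D.hQ u u = 0 := b_self_eq_zero D.hQ (D.sing _)
  have e7 : bform D.hQ u' u' = 0 := b_self_eq_zero D.hQ (D.sing _)
  have e8 : bform D.hQ W W = 2 * Q W := b_self D.hQ W
  simp only [Units.val_mul, ← Matrix.mulVec_mulVec, eichler_mulVec D.hQ, q_smul D.hQ, D.sing, map_add, map_sub,
    map_smul, LinearMap.add_apply, LinearMap.smul_apply, smul_eq_mul, e1, e2, e3, e4, e5, e6, e7, e8, huu',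
    show Q u = 0 from D.sing _]
  module

/-- A line spanning with its shift, together with the pair roots, generates `Ω`. -/
theorem orth_finish (hn : 2 ≤ n) {S : Subgroup ↥(omegaGL Q)} (hwS : oShift D hv ∈ S)
    (hP : ∀ p q, Far p q → Frame.P (oFrame D) S p q) {x0 : ι → F} (hx0 : Frame.Perp (oFrame D) x0)
    (h : ∀ t : F, EIn Q (img S) (D.z (pos n 1)) (t • x0))
    (hspan : ∀ x, Frame.Perp (oFrame D) x → ∃ a b : F, x = a • x0 + b • (x0 - bform D.hQ v1 x0 • v1))
    (hplane : ∀ s y, Frame.Perp (oFrame D) s → Frame.Perp (oFrame D) y → s ≠ 0 → Q s = 0 →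
      bform D.hQ s y = 0 → ∃ c : F, y = c • s) : S = ⊤ := by
  refine orth_eq_top D S hP (perp_all_of_one D S (oShift_isShift D hv hp) hwS (j := 1) fun x hx => ?_) hplane
  obtain ⟨a, b, rfl⟩ := hspan x hx
  refine EIn.add D.hQ (h a) (eIn_shift_stable D hv hp hn hwS hP hx0 h b) (D.sing _) ?_ ?_
  · rw [map_smul, (perp_iff D).1 hx0, smul_zero]
  · rw [map_smul, map_sub, (perp_iff D).1 hx0, map_smul, (perp_iff D).1 hp, smul_zero, sub_zero, smul_zero]

/-- A vector reached by conjugation contributes its perpendicular part. -/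
theorem eIn_perpPart {S : Subgroup ↥(omegaGL Q)} (hP : ∀ p q, Far p q → Frame.P (oFrame D) S p q)
    {p : Idx n} {y : ι → F} (hy : bform D.hQ (D.z p) y = 0) (h : EIn Q (img S) (D.z p) y) :
    EIn Q (img S) (D.z p) (Frame.perpPart (oFrame D) y) := by
  have e := Frame.eq_frame_add_perp (oFrame D) y
  set Y := Frame.perpPart (oFrame D) y
  simp only [oFrame_B, oFrame_z, show (oFrame D).ε = (1 : F) from rfl, pairVal_one, div_one] at e
  have hterm : ∀ q, bform D.hQ (D.z p) (bform D.hQ y (D.z (opp q)) • D.z q) = 0 ∧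
      EIn Q (img S) (D.z p) (bform D.hQ y (D.z (opp q)) • D.z q) := by
    intro q
    by_cases hq : q = opp p
    · rw [hq, opp_opp, b_symm D.hQ y, hy, zero_smul, map_zero]
      exact ⟨rfl, eIn_zero D S (D.sing p)⟩
    refine ⟨by rw [map_smul, D.pairing, if_neg hq, smul_zero], ?_⟩
    by_cases hqp : q = p
    · subst hqp; exact eIn_self D S (D.sing q) _
    · exact eIn_of_P D S ⟨hqp, hq⟩ (hP p q ⟨hqp, hq⟩) _
  have hsum : bform D.hQ (D.z p) (∑ q, bform D.hQ y (D.z (opp q)) • D.z q) = 0 := by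
    rw [map_sum]; exact Finset.sum_eq_zero fun q _ => (hterm q).1
  have hYeq : Y = y - ∑ q, bform D.hQ y (D.z (opp q)) • D.z q := eq_sub_of_add_eq' e.symm
  rw [hYeq]
  exact h.sub D.hQ (eIn_sum D S (D.sing p) _ _ fun q _ => hterm q) (D.sing p) hy hsum

end CfsgLib.TwoGenClassical
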