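import Cfsg.Agent.TwoGenClassical.Cycle
import Cfsg.Agent.Classical.Symp.Transvection

/-! Two-generation of the symplectic groups. -/

set_option autoImplicit false
set_option linter.unusedSectionVars false
set_option linter.style.haveILetI false

namespace CfsgLib.TwoGenClassical

open scoped Matrix
open CfsgLib.Classical.Symp

variable {m : ℕ} {F : Type*} [Field F]

local notation "Sp" => Matrix.symplecticGroup (Fin m) F

/-- The standard hyperbolic frame of the symplectic group. -/
noncomputable def spFrame (m : ℕ) (F : Type*) [Field F] :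
    Frame F (Fin m ⊕ Fin m) (Matrix.symplecticGroup (Fin m) F) m where
  z := Sum.elim stdE stdF
  B := Cfsg.sympForm m F
  σ := RingHom.id F
  ε := -1
  act := (Matrix.symplecticGroup (Fin m) F).subtype.toHomUnits
  inj g h e := Subtype.ext (congrArg Units.val e)
  sigma_sigma _ := rfl
  eps_sq := by simp
  sigma_eps := rfl
  add_left := form_add_left
  smul_left := form_smul_left
  swap x y := by rw [RingHom.id_apply, neg_one_mul]; exact form_swap y x
  pairing p q := by
    rcases p with i | i <;> rcases q with j | j <;>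
      simp [opp, pairVal, form_stdE_stdE, form_stdF_stdF, form_stdE_stdF, form_stdF_stdE, eq_comm]
  iso g x y := form_mulVec g x y
  X p q t := spT (Sum.elim stdE stdF p + Sum.elim stdE stdF q) t *
    spT (Sum.elim stdE stdF p) (-t) * spT (Sum.elim stdE stdF q) (-t)
  X_act p q t x h := by
    have hpq : Cfsg.sympForm m F (Sum.elim stdE stdF p) (Sum.elim stdE stdF q) = 0 := by
      obtain ⟨h1, h2⟩ := h
      rcases p with i | i <;> rcases q with j | j <;>
        simp_all [opp, form_stdE_stdE, form_stdF_stdF, form_stdE_stdF, form_stdF_stdE, eq_comm]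
    have hqp := form_eq_zero_comm.1 hpq
    simp only [MonoidHom.coe_toHomUnits, Submonoid.coe_subtype, mul_mulVec, spT_mulVec, form_add_left,
      form_smul_left, form_self, hpq, hqp, form_add_right, RingHom.id_apply]
    module

local notation "Φ" => spFrame m F
local notation "z" => Frame.z (spFrame m F)

theorem sp_v (g : Sp) (x : Fin m ⊕ Fin m → F) :
    Frame.v Φ g x = (g : Matrix (Fin m ⊕ Fin m) (Fin m ⊕ Fin m) F) *ᵥ x := rfl

theorem sp_perp {x : Fin m ⊕ Fin m → F} (hx : Frame.Perp Φ x) : x = 0 := by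
  funext i
  rcases i with i | i
  · have h : Cfsg.sympForm m F x (stdE i) = 0 := hx (.inl i)
    rw [form_stdE_right, neg_eq_zero] at h
    exact h
  · have h : Cfsg.sympForm m F x (stdF i) = 0 := hx (.inr i)
    rwa [form_stdF_right] at h

theorem spz_inl (i : Fin m) : z (.inl i) = stdE i := rfl

theorem spz_inr (i : Fin m) : z (.inr i) = stdF i := rfl

theorem sp_eps : (spFrame m F).ε = -1 := rfl

theorem sp_sigma (a : F) : (spFrame m F).σ a = a := rfl

theorem sp_B (x y : Fin m ⊕ Fin m → F) : (spFrame m F).B x y = Cfsg.sympForm m F x y := rfl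

/-- The parameters of one transvection group inside a subgroup. -/
def spParam (S : Subgroup Sp) (v : Fin m ⊕ Fin m → F) : AddSubgroup F where
  carrier := {c | spT v c ∈ S}
  zero_mem' := by simp [spT_zero]
  add_mem' {a b} ha hb := by simpa [spT_add] using S.mul_mem ha hb
  neg_mem' {a} ha := by simpa [spT_inv] using S.inv_mem ha

theorem spT_maps {S : Subgroup Sp} {g : Sp} (hg : g ∈ S) {p q : Idx m} (h : Frame.Maps Φ g p q)
    (hT : ∀ c, spT (z p) c ∈ S) (c : F) : spT (z q) c ∈ S := by
  obtain ⟨a, ha, e⟩ := h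
  have := S.mul_mem (S.mul_mem hg (hT (c / a ^ 2))) (S.inv_mem hg)
  rwa [conj_spT, ← sp_v, e, spT_smul, mul_div_cancel₀ _ (pow_ne_zero 2 ha)] at this

/-- Pair root groups and frame transvections generate. -/
theorem sp_eq_top {S : Subgroup Sp} (hP : ∀ p q, Far p q → Frame.P Φ S p q)
    (hT : ∀ p c, spT (z p) c ∈ S) : S = ⊤ := by
  rw [eq_top_iff, ← closure_transvectionSet, Subgroup.closure_le]
  rintro A ⟨v, c, hA⟩
  rw [show A = spT v c from Subtype.ext hA, SetLike.mem_coe]
  by_cases hv : Frame.Perp Φ v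
  · rw [sp_perp hv, spT_zero_left]
    exact S.one_mem
  simp only [Frame.Perp, not_forall] at hv
  obtain ⟨p, hp⟩ := hv
  obtain ⟨g, hg, h1, h2, -⟩ := Frame.exists_clear Φ hP hp
  set y := Frame.v Φ g v with hy
  have hdec := Frame.eq_frame_add_perp Φ y
  rw [sp_perp (Frame.perp_perpPart Φ y), add_zero] at hdec
  have hsum : y = ((Φ).B y (z (opp p)) / pairVal (Φ).ε p) • z p +
      ((Φ).B y (z p) / pairVal (Φ).ε (opp p)) • z (opp p) := by
    refine hdec.trans ?_
    rw [Finset.sum_eq_add p (opp p) (opp_ne p).symm]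
    · simp
    · intro r _ hr
      rw [h2 (opp r) (Far.oppR ⟨hr.1, hr.2⟩), zero_div, zero_smul]
    · simp
    · simp
  set a := (Φ).B y (z (opp p)) / pairVal (Φ).ε p with ha
  set b := (Φ).B y (z p) / pairVal (Φ).ε (opp p) with hb
  have hb0 : b ≠ 0 := by
    rw [hb, h1]
    exact div_ne_zero hp (Frame.pairVal_ne Φ _)
  have hyz : (Φ).B y (z p) ≠ 0 := by rw [h1]; exact hp
  set t := -a / (Φ).B y (z p) with ht
  have hkill : Frame.v Φ (spT (z p) t) y = b • z (opp p) := by
    rw [sp_v, spT_mulVec, ← sp_B, ht, div_mul_cancel₀ _ hyz]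
    nth_rw 1 [hsum]
    module
  have := S.mul_mem (S.mul_mem (S.inv_mem (S.mul_mem (hT p t) hg))
    (hT (opp p) (b ^ 2 * c))) (S.mul_mem (hT p t) hg)
  have e : spT v c = (spT (z p) t * g)⁻¹ * spT (z (opp p)) (b ^ 2 * c) * (spT (z p) t * g) := by
    rw [← spT_smul, ← hkill, hy, ← Frame.v_mul, sp_v, ← conj_spT]
    group
  rw [e]
  exact this

variable [NeZero m]

/-- The flip of the last pair. -/
noncomputable def spFlip (m : ℕ) (F : Type*) [Field F] [NeZero m] : Matrix.symplecticGroup (Fin m) F :=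
  spT (stdE ⟨m - 1, Nat.sub_lt (NeZero.pos m) Nat.one_pos⟩) 1 *
    spT (stdF ⟨m - 1, Nat.sub_lt (NeZero.pos m) Nat.one_pos⟩) 1 *
    spT (stdE ⟨m - 1, Nat.sub_lt (NeZero.pos m) Nat.one_pos⟩) 1

theorem spFlip_isFlip : Frame.IsFlip Φ (spFlip m F) := by
  constructor <;> intro i <;> by_cases hi : i.val + 1 = m
  · rw [if_pos hi, show i = ⟨m - 1, Nat.sub_lt (NeZero.pos m) Nat.one_pos⟩ from Fin.ext (by simp; omega)]
    refine ⟨1, one_ne_zero, ?_⟩
    rw [sp_v, spz_inl, spz_inr]
    simp only [spFlip, mul_mulVec, spT_mulVec, form_add_left,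
      form_smul_left, form_self, form_stdE_stdF, form_stdF_stdE, if_pos]
    module
  · rw [if_neg hi]
    have hne : i ≠ ⟨m - 1, Nat.sub_lt (NeZero.pos m) Nat.one_pos⟩ := fun e => hi (by
      rw [e]; simp; have := NeZero.pos m; omega)
    refine ⟨1, one_ne_zero, ?_⟩
    rw [sp_v, spz_inl]
    simp only [spFlip, mul_mulVec, spT_mulVec, form_stdE_stdF,
      form_stdE_stdE, if_neg hne, mul_zero, zero_smul, add_zero]
    module
  · rw [if_pos hi, show i = ⟨m - 1, Nat.sub_lt (NeZero.pos m) Nat.one_pos⟩ from Fin.ext (by simp; omega)]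
    refine ⟨-1, by simp, ?_⟩
    rw [sp_v, spz_inl, spz_inr]
    simp only [spFlip, mul_mulVec, spT_mulVec, form_add_left,
      form_smul_left, form_self, form_stdE_stdF, form_stdF_stdE, if_pos]
    module
  · rw [if_neg hi]
    have hne : i ≠ ⟨m - 1, Nat.sub_lt (NeZero.pos m) Nat.one_pos⟩ := fun e => hi (by
      rw [e]; simp; have := NeZero.pos m; omega)
    refine ⟨1, one_ne_zero, ?_⟩
    rw [sp_v, spz_inr]
    simp only [spFlip, mul_mulVec, spT_mulVec, form_stdF_stdE,
      form_stdF_stdF, if_neg hne, mul_zero, zero_smul, add_zero]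
    module

/-- The shift element. -/
noncomputable def spShift (m : ℕ) (F : Type*) [Field F] [NeZero m] : Matrix.symplecticGroup (Fin m) F :=
  (spFrame m F).cyc (m - 1) * spFlip m F

theorem spShift_isShift : Frame.IsShift Φ (spShift m F) := Frame.isShift_cyc_flip Φ spFlip_isFlip

/-- The long root groups come from the first one. -/
theorem sp_top_of_first {S : Subgroup Sp} (hm : 2 ≤ m) (hw : spShift m F ∈ S)
    (hA : Frame.P Φ S (pos m 0) (pos m (m + 1))) (hT : ∀ c, spT (z (pos m 0)) c ∈ S) : S = ⊤ := by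
  refine sp_eq_top (Frame.P_all Φ spShift_isShift hw hm hA) ?_
  have : ∀ k c, spT (z (pos m k)) c ∈ S := by
    intro k
    induction k with
    | zero => exact hT
    | succ k ih => exact spT_maps hw (spShift_isShift k) ih
  intro p
  obtain ⟨k, -, rfl⟩ := pos_surj p
  exact this k

theorem coe_X (p q : Idx m) (t : F) : (spFrame m F).X p q t =
    spT (z p + z q) t * spT (z p) (-t) * spT (z q) (-t) := rfl

/-- Odd characteristic: short roots give long roots. -/
theorem spT_of_pairs (h2 : (2 : F) ≠ 0) {S : Subgroup Sp} {p r : Idx m} (h : Far p r)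
    (hP : ∀ p q, Far p q → Frame.P Φ S p q) (c : F) : spT (z p) c ∈ S := by
  set g := (spFrame m F).up p r 1
  have hg : g ∈ S := hP _ _ h.oppR _
  have hgp : Frame.v Φ g (z p) = z p := Frame.up_fix Φ h 1 h.1.symm (opp_ne p).symm
  have hgr : Frame.v Φ g (z r) = z r + (1 : F) • z p := Frame.up_self Φ h 1
  have key : g * (spFrame m F).X p r (c / 2) * g⁻¹ = (spFrame m F).X p r (c / 2) * spT (z p) c := by
    refine Frame.ext_v Φ fun x => ?_
    obtain ⟨y, rfl⟩ := Frame.v_surj Φ g x
    have hb := Frame.iso_v Φ g y (z p)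
    have hc := Frame.iso_v Φ g y (z r)
    rw [hgp] at hb
    rw [hgr] at hc
    simp only [Frame.v_mul, Frame.v_inv, Frame.X_v _ h, Frame.v_sub, Frame.v_add, Frame.v_smul, hgp, hgr,
      ← hb, ← hc]
    rw [sp_v (spT (z p) c), spT_mulVec, ← sp_B]
    simp only [Frame.add_left, Frame.smul_left, Frame.pair_zero _ h.2, Frame.pair_zero _ (opp_ne p).symm,
      Frame.add_right, Frame.smul_right, map_one, sp_sigma, sp_eps]
    have e : c / 2 + c / 2 = c := by rw [← add_div, ← two_mul, mul_div_assoc, mul_div_cancel₀ c h2]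
    match_scalars
    · ring
    · ring
    · linear_combination ((spFrame m F).B (Frame.v Φ g y) (z p)) * e
  have hX := hP p r h (c / 2)
  have := S.mul_mem (S.inv_mem hX) (S.mul_mem (S.mul_mem hg hX) (S.inv_mem hg))
  rwa [key, inv_mul_cancel_left] at this

section Main

variable [Finite F]

theorem orderOf_coprime_of_char {G : Type*} [Group G] (A Z : G) (hA : A ^ ringChar F = 1)
    (hZ : Z ^ (Nat.card F - 1) = 1) : (orderOf A).Coprime (orderOf Z) := by
  classical
  haveI : Fintype F := Fintype.ofFinite F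
  obtain ⟨e, hp, he⟩ := FiniteField.card F (ringChar F)
  refine Nat.Coprime.coprime_dvd_left (orderOf_dvd_of_pow_eq_one hA)
    (Nat.Coprime.coprime_dvd_right (orderOf_dvd_of_pow_eq_one hZ) ?_)
  rw [hp.coprime_iff_not_dvd, Nat.card_eq_fintype_card, he]
  intro h
  have h1 : 1 ≤ ringChar F ^ (e : ℕ) := Nat.one_le_pow _ _ hp.pos
  have h2 := Nat.dvd_sub (dvd_pow_self (ringChar F) e.ne_zero) h
  rw [Nat.sub_sub_self h1, Nat.dvd_one] at h2
  exact hp.ne_one h2

theorem pow_gen_stable {A : AddSubgroup F} {k : Fˣ} (hk : ∀ u : Fˣ, u ∈ Submonoid.powers k)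
    (h : ∀ a ∈ A, (k : F) ^ 2 * a ∈ A) {c : F} (hc : c ∈ A) (hc0 : c ≠ 0) (t : F) : t ∈ A := by
  have hj : ∀ j a, a ∈ A → ((k : F) ^ 2) ^ j * a ∈ A := by
    intro j
    induction j with
    | zero => simp
    | succ j ih => intro a ha; rw [pow_succ, mul_assoc]; exact ih _ (h a ha)
  refine eq_top_of_squares A (fun u hu a ha => ?_) hc hc0 t
  obtain ⟨i, hi⟩ := (Submonoid.mem_powers_iff _ _).1 (hk (Units.mk0 u hu))
  have hu' : u = (k : F) ^ i := by rw [← Units.val_pow_eq_pow_val, hi, Units.val_mk0]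
  rw [hu', ← pow_mul, mul_comm i 2, pow_mul]
  exact hj i a ha

theorem X_pow {n : ℕ} {G : Type*} [Group G] {P : F → G} (hP : ∀ a b, P (a + b) = P a * P b)
    (h0 : P 0 = 1) (_ : n = ringChar F) : P 1 ^ n = 1 := by
  have : ∀ j : ℕ, P 1 ^ j = P (j : F) := fun j => by
    induction j with
    | zero => simp [h0]
    | succ j ih => rw [pow_succ, ih, Nat.cast_succ, hP]
  rw [this, ‹n = _›, ringChar.Nat.cast_ringChar, h0]

/-- `Sp_{2m}(F)` is generated by two elements, except possibly for `Sp_4(2)`. -/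
theorem sp_two_generated (hm : 2 ≤ m) (hF : m = 2 → 2 < Nat.card F) :
    ∃ a b : Matrix.symplecticGroup (Fin m) F, Subgroup.closure ({a, b} : Set _) = ⊤ := by
  classical
  haveI : Fintype F := Fintype.ofFinite F
  haveI : CharP F (ringChar F) := ringChar.charP F
  obtain ⟨k, hk, hord⟩ := exists_gen (F := F)
  have hk0 : (k : F) ≠ 0 := k.ne_zero
  let i0 : Fin m := ⟨0, by omega⟩
  let i1 : Fin m := ⟨1, by omega⟩
  have hfar : Far (Sum.inl i0 : Idx m) (Sum.inr i1) :=
    ⟨by simp, by simp [opp, i0, i1, Fin.ext_iff]⟩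
  have hp0 : pos m 0 = Sum.inl i0 := by
    rw [pos_lt (by rw [Nat.zero_mod]; omega)]; simp [i0]
  have hp1 : pos m 1 = Sum.inl i1 := by
    have e : 1 % (2 * m) = 1 := Nat.mod_eq_of_lt (by omega)
    rw [pos_lt (by omega)]; simp [i1, e]
  have hpm : pos m m = Sum.inr i0 := by
    have e : m % (2 * m) = m := Nat.mod_eq_of_lt (by omega)
    rw [pos_ge (by omega)]; simp [i0, e]
  have hpm1 : pos m (m + 1) = Sum.inr i1 := by
    have e : (m + 1) % (2 * m) = m + 1 := Nat.mod_eq_of_lt (by omega)
    rw [pos_ge (by omega)]; simp [i1, e]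
  set w := spShift m F with hwdef
  have hw : Frame.IsShift Φ w := spShift_isShift
  set z0 := (spFrame m F).H (Sum.inl i0) (Sum.inr i1) (k : F) with hz0
  let d : Idx m → F := fun p => if p = Sum.inl i0 then (k : F) else if p = Sum.inl i1 then (k : F)
    else if p = Sum.inr i0 then (k : F)⁻¹ else if p = Sum.inr i1 then (k : F)⁻¹ else 1
  have hd : ∀ p, Frame.v Φ z0 (z p) = d p • z p := by
    intro p
    simp only [d]
    by_cases h1 : p = Sum.inl i0
    · rw [if_pos h1, h1]; exact Frame.H_left Φ hfar hk0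
    by_cases h2 : p = Sum.inl i1
    · rw [if_neg h1, if_pos h2, h2]; exact Frame.H_opp_right Φ hfar hk0
    by_cases h3 : p = Sum.inr i0
    · rw [if_neg h1, if_neg h2, if_pos h3, h3]; exact Frame.H_opp_left Φ hfar hk0
    by_cases h4 : p = Sum.inr i1
    · rw [if_neg h1, if_neg h2, if_neg h3, if_pos h4, h4]; exact Frame.H_right Φ hfar hk0
    rw [if_neg h1, if_neg h2, if_neg h3, if_neg h4, one_smul]
    exact Frame.H_fix Φ hfar _ h1 h4 h3 h2
  have dp0 : d (Sum.inl i0) = (k : F) := by simp [d]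
  have dp1 : d (Sum.inl i1) = (k : F) := by simp [d, i0, i1]
  have dq0 : d (Sum.inr i0) = (k : F)⁻¹ := by simp [d]
  have dq1 : d (Sum.inr i1) = (k : F)⁻¹ := by simp [d, i0, i1]
  set A1 := (spFrame m F).X (Sum.inl i0) (Sum.inr i1) 1 with hA1def
  have hA1 : A1 ^ ringChar F = 1 :=
    X_pow (P := fun t => (spFrame m F).X (Sum.inl i0) (Sum.inr i1) t)
      (Frame.X_add Φ hfar) (Frame.X_zero Φ hfar) rfl
  -- the first pair root group, given the shift and `z0`
  have full : ∀ S : Subgroup (Matrix.symplecticGroup (Fin m) F), w ∈ S → z0 ∈ S → A1 ∈ S →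
      Frame.P Φ S (pos m 0) (pos m (m + 1)) := by
    intro S hwS hzS hAS
    have hz1 : w * z0 * w⁻¹ ∈ S := S.mul_mem (S.mul_mem hwS hzS) (S.inv_mem hwS)
    have e0 : Frame.v Φ (w * z0 * w⁻¹) (z (pos m 0)) = d (pos m (2 * m - 1)) • z (pos m 0) := by
      have h := hw (2 * m - 1)
      rw [show 2 * m - 1 + 1 = 0 + 2 * m by omega, pos_add_period] at h
      exact Frame.conj_eigen Φ h (hd _)
    have e1 : Frame.v Φ (w * z0 * w⁻¹) (z (pos m (m + 1))) = (k : F)⁻¹ • z (pos m (m + 1)) := by
      have := Frame.conj_eigen Φ (hw m) (hd (pos m m))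
      rwa [show d (pos m m) = (k : F)⁻¹ by rw [hpm, dq0]] at this
    rw [hp0] at e0 ⊢
    rw [hpm1] at e1 ⊢
    intro t
    refine pow_gen_stable (A := Frame.param Φ S hfar) (k := k⁻¹) ?_ ?_ (c := 1) hAS one_ne_zero t
    · intro u
      rw [mem_powers_iff_mem_zpowers, Subgroup.zpowers_inv, ← mem_powers_iff_mem_zpowers]
      exact hk u
    intro a ha
    have h1 := Frame.param_scale Φ hfar hz1 e0 e1 ha
    rw [sp_sigma] at h1
    have hval : d (pos m (2 * m - 1)) = (k : F)⁻¹ ∨ d (pos m (2 * m - 1)) = 1 := by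
      have e : (2 * m - 1) % (2 * m) = 2 * m - 1 := Nat.mod_eq_of_lt (by omega)
      rw [pos_ge (by omega)]
      simp only [d, reduceCtorEq, if_false]
      split_ifs <;> simp
    rcases hval with hv | hv
    · rw [hv] at h1
      convert h1 using 1
      simp [sq]
    · rw [hv] at e0
      rw [hv, one_mul] at h1
      have h2 := Frame.param_scale Φ hfar hz1 e0 e1 h1
      rw [sp_sigma, one_mul] at h2
      convert h2 using 1
      simp [sq, mul_assoc]
  have pow_z0 : z0 ^ (Nat.card F - 1) = 1 := by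
    refine Frame.ext_frame Φ (fun p => ?_) fun x hx => by rw [sp_perp hx]; simp [sp_v]
    have : ∀ j : ℕ, Frame.v Φ (z0 ^ j) (z p) = d p ^ j • z p := fun j => by
      induction j with
      | zero => simp
      | succ j ih => rw [pow_succ, Frame.v_mul, hd, Frame.v_smul, ih, smul_smul, ← pow_succ']
    rw [this, Frame.v_one]
    have hne : d p ≠ 0 := by simp only [d]; split_ifs <;> simp [hk0]
    rw [Nat.card_eq_fintype_card, FiniteField.pow_card_sub_one_eq_one _ hne, one_smul]
  have hcomm : Commute A1 z0 := by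
    have := Frame.X_conj Φ hfar hfar (by rw [hd, dp0] : Frame.v Φ z0 (z (Sum.inl i0)) = (k : F) • _)
      (by rw [hd, dq1] : Frame.v Φ z0 (z (Sum.inr i1)) = (k : F)⁻¹ • _) 1
    rw [sp_sigma, mul_one, mul_inv_cancel₀ hk0, mul_inv_eq_iff_eq_mul] at this
    exact this.symm
  have hall : ∀ S : Subgroup (Matrix.symplecticGroup (Fin m) F), w ∈ S →
      Frame.P Φ S (pos m 0) (pos m (m + 1)) → ∀ p q, Far p q → Frame.P Φ S p q :=
    fun S hwS h => Frame.P_all Φ hw hwS hm h
  by_cases h2 : (2 : F) = 0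
  swap
  · refine ⟨w, A1 * z0, ?_⟩
    set S := Subgroup.closure ({w, A1 * z0} : Set _) with hS
    have hwS : w ∈ S := Subgroup.subset_closure (by simp)
    obtain ⟨hAS, hzS⟩ := mem_of_mul_mem S hcomm (Subgroup.subset_closure (by simp))
      (orderOf_coprime_of_char (F := F) A1 z0 hA1 pow_z0)
    have hP := full S hwS hzS hAS
    exact sp_top_of_first hm hwS hP fun c => spT_of_pairs h2
      (r := Sum.inl i1) (by rw [hp0]; exact ⟨by simp [i0, i1], by simp [opp]⟩) (hall S hwS hP) c
  haveI : CharP F 2 := by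
    refine CharP.congr (ringChar F) ?_
    obtain ⟨e, hp, he⟩ := FiniteField.card F (ringChar F)
    exact (Nat.prime_dvd_prime_iff_eq hp Nat.prime_two).1
      ((ringChar.spec F 2).1 (by exact_mod_cast h2))
  rcases eq_or_ne ((k : F) ^ 2) 1 with hk2 | hk2
  · -- the field with two elements
    have hk1 : (k : F) = 1 := by
      have h0 : ((k : F) + 1) ^ 2 = 0 := by linear_combination hk2 + ((k : F) + 1) * h2
      have := pow_eq_zero_iff (n := 2) (by norm_num) |>.1 h0
      linear_combination this - h2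
    have hcard : Nat.card F = 2 := by
      rw [hk1, orderOf_one] at hord; omega
    have h3 : 3 ≤ m := by
      rcases Nat.lt_or_ge m 3 with h | h
      · have := hF (by omega); omega
      · exact h
    let i2 : Fin m := ⟨2, by omega⟩
    set z3 : Matrix.symplecticGroup (Fin m) F := spT (stdE i2) 1 * spT (stdF i2) 1 with hz3
    have one_eq : ∀ t : F, t = 0 ∨ t = 1 := by
      intro t
      by_contra hne
      push Not at hne
      rw [Nat.card_eq_fintype_card] at hcard
      have : ({0, 1, t} : Finset F).card = 3 := by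
        rw [Finset.card_insert_of_notMem (by simp [hne.1.symm]), Finset.card_insert_of_notMem
          (by simp [hne.2.symm]), Finset.card_singleton]
      have := Finset.card_le_univ ({0, 1, t} : Finset F)
      omega
    have hneg : ∀ a : F, -a = a := fun a => by linear_combination (-a) * h2
    have hvE : Frame.v Φ z3 (stdE i2) = stdF i2 := by
      simp only [sp_v, hz3, mul_mulVec, spT_mulVec, form_add_left, form_smul_left, form_self,
        form_stdE_stdF, form_stdF_stdE, if_pos]
      match_scalars <;> linear_combination (0 : F) * h2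
    have hvF : Frame.v Φ z3 (stdF i2) = stdF i2 + stdE i2 := by
      simp only [sp_v, hz3, mul_mulVec, spT_mulVec, form_self, form_stdF_stdE, if_pos, hneg, mul_zero,
        zero_smul, add_zero, mul_one, one_smul]
    have hfix : ∀ x, Cfsg.sympForm m F x (stdE i2) = 0 → Cfsg.sympForm m F x (stdF i2) = 0 →
        Frame.v Φ z3 x = x := by
      intro x hx hy
      simp only [sp_v, hz3, mul_mulVec, spT_mulVec, hx, hy, mul_zero, zero_smul, add_zero]
    have hc3 : Commute A1 z3 := by
      have e0 : Frame.v Φ z3 (z (Sum.inl i0)) = (1 : F) • z (Sum.inl i0) := by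
        rw [one_smul]; exact hfix _ (by simp [spz_inl, form_stdE_stdE])
          (by simp [spz_inl, form_stdE_stdF, i0, i2])
      have e1 : Frame.v Φ z3 (z (Sum.inr i1)) = (1 : F) • z (Sum.inr i1) := by
        rw [one_smul]; exact hfix _ (by simp [spz_inr, form_stdF_stdE, i1, i2])
          (by simp [spz_inr, form_stdF_stdF])
      have := Frame.X_conj Φ hfar hfar e0 e1 1
      rw [map_one, one_mul, one_mul, mul_inv_eq_iff_eq_mul] at this
      exact this.symm
    have hxx : ∀ x : Fin m ⊕ Fin m → F, x + x = 0 := fun x => by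
      funext i; simp only [Pi.add_apply, Pi.zero_apply]; linear_combination x i * h2
    have hz33 : z3 ^ 3 = 1 := by
      refine Frame.ext_frame Φ (fun p => ?_) fun x hx => by rw [sp_perp hx]; simp [sp_v]
      rw [pow_succ, pow_two, Frame.v_mul, Frame.v_mul, Frame.v_one]
      rcases p with i | i
      · rw [spz_inl]
        by_cases hi : i = i2
        · rw [hi, hvE, hvF, Frame.v_add, hvF, hvE,
            show stdF i2 + stdE i2 + stdF i2 = stdE i2 + (stdF i2 + stdF i2) by abel, hxx, add_zero]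
        · have e := hfix (stdE i) (form_stdE_stdE _ _) (by rw [form_stdE_stdF, if_neg hi])
          rw [e, e, e]
      · rw [spz_inr]
        by_cases hi : i = i2
        · rw [hi, hvF, Frame.v_add, hvF, hvE, Frame.v_add, Frame.v_add, hvF, hvE,
            show stdF i2 + stdE i2 + stdF i2 + (stdF i2 + stdE i2) =
              stdF i2 + (stdF i2 + stdF i2) + (stdE i2 + stdE i2) by abel, hxx, hxx, add_zero, add_zero]
        · have e := hfix (stdF i) (by rw [form_stdF_stdE, if_neg hi]) (form_stdF_stdF _ _)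
          rw [e, e, e]
    refine ⟨w, A1 * z3, ?_⟩
    set S := Subgroup.closure ({w, A1 * z3} : Set _) with hS
    have hwS : w ∈ S := Subgroup.subset_closure (by simp)
    obtain ⟨hAS, hzS⟩ := mem_of_mul_mem S hc3 (Subgroup.subset_closure (by simp))
      (Nat.Coprime.coprime_dvd_left (orderOf_dvd_of_pow_eq_one hA1)
        (Nat.Coprime.coprime_dvd_right (orderOf_dvd_of_pow_eq_one hz33)
          (by rw [(CharP.eq F (ringChar.charP F) inferInstance : ringChar F = 2)]; norm_num)))
    have hP0 : Frame.P Φ S (pos m 0) (pos m (m + 1)) := by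
      rw [hp0, hpm1]
      intro t
      rcases one_eq t with rfl | rfl
      · rw [Frame.X_zero Φ hfar]; exact S.one_mem
      · exact hAS
    refine sp_top_of_first hm hwS hP0 fun c => ?_
    rw [hp0]
    have hP := hall S hwS hP0
    have f1 : Far (Sum.inr i2 : Idx m) (Sum.inl i0) := ⟨by simp, by simp [opp, i0, i2]⟩
    have f2 : Far (Sum.inl i2 : Idx m) (Sum.inl i0) := ⟨by simp [i0, i2], by simp [opp]⟩
    rcases one_eq c with rfl | rfl
    · rw [spT_zero]; exact S.one_mem
    have key : z3 * (spFrame m F).X (Sum.inr i2) (Sum.inl i0) 1 * z3⁻¹ =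
        (spFrame m F).X (Sum.inr i2) (Sum.inl i0) 1 * (spFrame m F).X (Sum.inl i2) (Sum.inl i0) 1 *
          spT (z (Sum.inl i0)) 1 := by
      refine Frame.ext_v Φ fun x => ?_
      obtain ⟨y, rfl⟩ := Frame.v_surj Φ z3 x
      have hb := Frame.iso_v Φ z3 y (z (Sum.inr i2))
      have hc := Frame.iso_v Φ z3 y (z (Sum.inl i0))
      have e0 : Frame.v Φ z3 (z (Sum.inl i0)) = z (Sum.inl i0) := hfix _ (by simp [spz_inl, form_stdE_stdE])
        (by simp [spz_inl, form_stdE_stdF, i0, i2])
      rw [spz_inr, hvF] at hb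
      rw [e0] at hc
      simp only [Frame.v_mul, Frame.v_inv, Frame.X_v _ f1, Frame.X_v _ f2, Frame.v_sub, Frame.v_add,
        Frame.v_smul, e0, spz_inr, hvF, ← hb, ← hc]
      rw [sp_v (spT _ _), spT_mulVec]
      simp only [spz_inl, sp_sigma, sp_eps, sp_B, form_add_left, form_sub_left, form_smul_left,
        form_add_right, form_self, form_stdE_stdE, form_stdE_stdF, if_pos,
        if_neg (show i0 ≠ i2 by simp [i0, i2])]
      match_scalars <;> first
        | ring1
        | linear_combination (-(Cfsg.sympForm m F (Frame.v Φ z3 y) (stdE i0))) * h2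
    have h := S.mul_mem (S.inv_mem (S.mul_mem (hP _ _ f1 1) (hP _ _ f2 1)))
      (S.mul_mem (S.mul_mem hzS (hP _ _ f1 1)) (S.inv_mem hzS))
    rwa [key, inv_mul_cancel_left] at h
  · -- Steinberg's commutator supplies the long root group
    refine ⟨spT (z (Sum.inl i1)) 1 * w, A1 * z0, ?_⟩
    set S := Subgroup.closure ({spT (z (Sum.inl i1)) 1 * w, A1 * z0} : Set _) with hS
    obtain ⟨hAS, hzS⟩ := mem_of_mul_mem S hcomm (Subgroup.subset_closure (by simp))
      (orderOf_coprime_of_char (F := F) A1 z0 hA1 pow_z0)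
    have hz1 : Frame.v Φ (w * z0 * w⁻¹) (z (Sum.inl i1)) = (k : F) • z (Sum.inl i1) := by
      have := Frame.conj_eigen Φ (hw 0) (hd (pos m 0))
      rwa [hp0, dp0, zero_add, hp1] at this
    have hz1' : Frame.v Φ z0 (z (Sum.inl i1)) = (k : F) • z (Sum.inl i1) := by rw [hd, dp1]
    have hconj : ∀ g : Matrix.symplecticGroup (Fin m) F,
        Frame.v Φ g (z (Sum.inl i1)) = (k : F) • z (Sum.inl i1) →
        ∀ c, g * spT (z (Sum.inl i1)) c * g⁻¹ = spT (z (Sum.inl i1)) ((k : F) ^ 2 * c) := by
      intro g hg c; rw [conj_spT, ← sp_v, hg, spT_smul]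
    have hc1 : z0 * (w * z0 * w⁻¹) = w * z0 * w⁻¹ * z0 := by
      have he : ∀ p, ∃ c, Frame.v Φ (w * z0 * w⁻¹) (z p) = c • z p := fun p => by
        obtain ⟨p', hp'⟩ := Frame.IsShift.onto Φ hw p
        exact ⟨_, Frame.conj_eigen Φ hp' (hd p')⟩
      choose d' hd' using he
      exact Frame.commute_of_eigen Φ d d' hd hd' fun x hx => by rw [sp_perp hx]; simp [sp_v]
    have ht := commutator_trick (fun c => spT (z (Sum.inl i1)) c) (fun a b => spT_add _ a b) S hzS
      (v := (1 : F)) (Subgroup.subset_closure (by simp)) rfl hc1 (hconj z0 hz1') (hconj _ hz1)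
    have hT : ∀ c, spT (z (Sum.inl i1)) c ∈ S := fun c => by
      refine pow_gen_stable (A := spParam S (z (Sum.inl i1))) hk (fun a ha => ?_) ht ?_ c
      · have := S.mul_mem (S.mul_mem hzS ha) (S.inv_mem hzS)
        rwa [hconj z0 hz1'] at this
      · have : (k : F) ^ 2 * (1 + (k : F) ^ 2 * -1) - (1 + (k : F) ^ 2 * -1) = -((k : F) ^ 2 - 1) ^ 2 := by
          ring
        rw [this, neg_ne_zero]
        exact pow_ne_zero 2 (sub_ne_zero.2 hk2)
    have hwS : w ∈ S := by
      have := S.mul_mem (S.inv_mem (hT 1)) (Subgroup.subset_closure (by simp) : spT (z (Sum.inl i1)) 1 * w ∈ S)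
      rwa [inv_mul_cancel_left] at this
    refine sp_top_of_first hm hwS (full S hwS hzS hAS) fun c => ?_
    rw [hp0]
    have h01 := hw 0
    rw [hp0, zero_add, hp1] at h01
    exact spT_maps (S.inv_mem hwS) (Frame.Maps.inv Φ h01) hT c

end Main

end CfsgLib.TwoGenClassical
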