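import Cfsg.Agent.TwoGenClassical.Cycle
import Cfsg.Agent.Classical.Unitary.Generation
import Cfsg.Agent.Classical.Unitary.Isotropic

/-!
Two-generation of special unitary groups: the frame, the Heisenberg root elements, and the
criterion reducing generation to root elements along the frame.
-/

set_option autoImplicit false
set_option linter.unusedSectionVars false
set_option linter.style.haveILetI false

namespace CfsgLib.TwoGenClassical

open Cfsg CfsgLib.Unitary
open scoped Matrix MatrixGroups

variable {F : Type*} [Field F] [Fintype F] {N q : ℕ}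

/-- A hyperbolic frame of a hermitian space. -/
structure UData (F : Type*) [Field F] [Fintype F] (N q n : ℕ) where
  hF : Fintype.card F = q ^ 2
  z : Idx n → Fin N → F
  pairing : ∀ p r, hermForm N F q (z p) (z r) = if r = opp p then 1 else 0

theorem pairVal_one' {n : ℕ} (p : Idx n) : pairVal (1 : F) p = 1 := by cases p <;> rfl

instance instDecidableFar {n : ℕ} (p r : Idx n) : Decidable (Far p r) :=
  inferInstanceAs (Decidable (r ≠ p ∧ r ≠ opp p))

/-- An element of `SU` from a matrix. -/
noncomputable def mkSU (M : Matrix (Fin N) (Fin N) F)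
    (h : M.det = 1 ∧ ∀ x y, hermForm N F q (M *ᵥ x) (M *ᵥ y) = hermForm N F q x y) : ↥(SU N F q) :=
  ⟨⟨M, h.1⟩, mem_SU.2 h.2⟩

variable {n : ℕ} (D : UData F N q n)

theorem UData.isotropic (p : Idx n) : hermForm N F q (D.z p) (D.z p) = 0 := by
  rw [D.pairing, if_neg (opp_ne p).symm]

/-- The matrix of `x ↦ x + h(x,z) y - h(x,y) z + s h(x,z) z`. -/
def heisM (q : ℕ) (z y : Fin N → F) (s : F) : Matrix (Fin N) (Fin N) F :=
  rankOne q (y + s • z) z * rankOne q (-z) y

theorem heisM_mulVec {z y : Fin N → F} (hz : hermForm N F q z z = 0) (s : F) (x : Fin N → F) :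
    heisM q z y s *ᵥ x = x + hermForm N F q x z • y - hermForm N F q x y • z +
      (s * hermForm N F q x z) • z := by
  rw [heisM, ← Matrix.mulVec_mulVec, rankOne_mulVec, rankOne_mulVec, herm_add_left, herm_smul_left,
    herm_neg_left, hz]
  module

theorem heisM_ok (hF : Fintype.card F = q ^ 2) {z y : Fin N → F} (hz : hermForm N F q z z = 0)
    (hzy : hermForm N F q y z = 0) {s : F} (hs : s + s ^ q + hermForm N F q y y = 0) :
    (heisM q z y s).det = 1 ∧
      ∀ u v, hermForm N F q (heisM q z y s *ᵥ u) (heisM q z y s *ᵥ v) = hermForm N F q u v := by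
  constructor
  · rw [heisM, Matrix.det_mul, det_rankOne, det_rankOne, herm_add_left, herm_smul_left, hz, hzy, herm_neg_left,
      herm_eq_zero_comm hF hzy]
    ring
  · intro u v
    rw [heisM_mulVec hz, heisM_mulVec hz]
    have hvz : hermForm N F q z v = hermForm N F q v z ^ q := herm_conj hF v z
    have hvy : hermForm N F q y v = hermForm N F q v y ^ q := herm_conj hF v y
    simp only [herm_add_left, herm_sub_left, herm_smul_left, herm_add_right hF, herm_sub_right hF,
      herm_smul_right, hz, hzy, herm_eq_zero_comm hF hzy, hvz, hvy, mul_pow]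
    linear_combination (hermForm N F q u z * hermForm N F q v z ^ q) * hs

/-- The root element of the pair. -/
noncomputable def uX (p r : Idx n) (t : F) : ↥(SU N F q) :=
  if h : Far p r then
    mkSU (heisM q (D.z p) (t • D.z r) 0) (heisM_ok D.hF (D.isotropic p)
      (by rw [herm_smul_left, D.pairing, if_neg h.symm.2, mul_zero])
      (by rw [herm_smul_left, herm_smul_right, D.isotropic, mul_zero, mul_zero,
        zero_pow (by have := two_le_q D.hF; omega), add_zero, add_zero]))
  else 1

theorem sv_mkSU (M : Matrix (Fin N) (Fin N) F)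
    (h : M.det = 1 ∧ ∀ x y, hermForm N F q (M *ᵥ x) (M *ᵥ y) = hermForm N F q x y) (x : Fin N → F) :
    sv (mkSU M h) x = M *ᵥ x := rfl

/-- The frame of a special unitary group. -/
noncomputable def uFrame : Frame F (Fin N) (SU N F q) n where
  z := D.z
  B x y := hermForm N F q x y
  σ := conjHom D.hF
  ε := 1
  act := Matrix.SpecialLinearGroup.toGL.comp (SU N F q).subtype
  inj A B h := Subtype.ext (Subtype.ext (congrArg Units.val h))
  sigma_sigma := pow_q_q D.hF
  eps_sq := one_mul 1
  sigma_eps := map_one _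
  add_left := herm_add_left
  smul_left := herm_smul_left
  swap x y := by rw [one_mul]; exact herm_conj D.hF x y
  pairing p r := by rw [D.pairing, pairVal_one']
  iso g x y := sv_herm g x y
  X := uX D
  X_act p r t x h := by
    show sv (uX D p r t) x = _
    rw [uX, dif_pos h, sv_mkSU, heisM_mulVec (D.isotropic p), herm_smul_right, one_mul]
    show _ = x + (t * hermForm N F q x (D.z p)) • D.z r - (t ^ q * hermForm N F q x (D.z r)) • D.z p
    module

theorem uFrame_v (g : ↥(SU N F q)) (x : Fin N → F) : Frame.v (uFrame D) g x = sv g x := rfl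

theorem uFrame_z (p : Idx n) : (uFrame D).z p = D.z p := rfl

theorem uFrame_B (x y : Fin N → F) : (uFrame D).B x y = hermForm N F q x y := rfl

theorem uFrame_sigma (a : F) : (uFrame D).σ a = a ^ q := rfl

theorem uFrame_eps : (uFrame D).ε = 1 := rfl

/-! ### Heisenberg elements -/

/-- The condition on the parameters of a Heisenberg element at `p`. -/
def HeisOK (p : Idx n) (y : Fin N → F) (s : F) : Prop :=
  hermForm N F q y (D.z p) = 0 ∧ s + s ^ q + hermForm N F q y y = 0

/-- The Heisenberg element. -/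
noncomputable def uU {p : Idx n} {y : Fin N → F} {s : F} (h : HeisOK D p y s) : ↥(SU N F q) :=
  mkSU (heisM q (D.z p) y s) (heisM_ok D.hF (D.isotropic p) h.1 h.2)

theorem uU_v {p : Idx n} {y : Fin N → F} {s : F} (h : HeisOK D p y s) (x : Fin N → F) :
    sv (uU D h) x = x + hermForm N F q x (D.z p) • y - hermForm N F q x y • D.z p +
      (s * hermForm N F q x (D.z p)) • D.z p :=
  heisM_mulVec (D.isotropic p) s x

theorem heisOK_zero (p : Idx n) {s : F} (hs : s + s ^ q = 0) : HeisOK D p 0 s :=
  ⟨herm_zero_left _, by rw [herm_zero_left, add_zero, hs]⟩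

theorem heisOK_add {p : Idx n} {y y' : Fin N → F} {s s' : F} (h : HeisOK D p y s) (h' : HeisOK D p y' s') :
    HeisOK D p (y + y') (s + s' - hermForm N F q y' y) := by
  refine ⟨by rw [herm_add_left, h.1, h'.1, add_zero], ?_⟩
  rw [herm_add_left, herm_add_right D.hF, herm_add_right D.hF, sub_pow_q D.hF, add_pow_q D.hF,
    ← herm_conj D.hF]
  linear_combination h.2 + h'.2

theorem uU_mul {p : Idx n} {y y' : Fin N → F} {s s' : F} (h : HeisOK D p y s) (h' : HeisOK D p y' s') :
    uU D h * uU D h' = uU D (heisOK_add D h h') := by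
  refine sv_ext fun x => ?_
  rw [sv_mul, uU_v D h', uU_v D h, uU_v]
  simp only [herm_add_left, herm_sub_left, herm_smul_left, D.isotropic, h'.1, herm_add_right D.hF,
    herm_eq_zero_comm D.hF h.1]
  module

theorem uU_congr {p : Idx n} {y y' : Fin N → F} {s s' : F} (h : HeisOK D p y s) (h' : HeisOK D p y' s')
    (ey : y = y') (es : s = s') : uU D h = uU D h' := by
  subst ey es; rfl

theorem uU_one {p : Idx n} (h : HeisOK D p 0 0) : uU D h = 1 := by
  refine sv_ext fun x => ?_
  rw [uU_v, sv_one, herm_zero_right D.hF]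
  module

theorem heisOK_neg {p : Idx n} {y : Fin N → F} {s : F} (h : HeisOK D p y s) : HeisOK D p (-y) (s ^ q) :=
  ⟨by rw [herm_neg_left, h.1, neg_zero], by
    rw [herm_neg_left, herm_neg_right D.hF, neg_neg, pow_q_q D.hF]; linear_combination h.2⟩

theorem uU_inv {p : Idx n} {y : Fin N → F} {s : F} (h : HeisOK D p y s) :
    (uU D h)⁻¹ = uU D (heisOK_neg D h) := by
  rw [inv_eq_iff_mul_eq_one, uU_mul,
    uU_congr D _ (heisOK_zero D p (s := 0) (by rw [zero_pow (by have := two_le_q D.hF; omega), add_zero]))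
      (add_neg_cancel y) (by rw [herm_neg_left, sub_neg_eq_add]; exact h.2), uU_one]

/-- Heisenberg elements are carried along monomial maps. -/
theorem uU_conj {g : ↥(SU N F q)} {p p' : Idx n} {a : F} (hg : sv g (D.z p) = a • D.z p')
    {y : Fin N → F} {s : F} (h : HeisOK D p y s) (h' : HeisOK D p' (a ^ q • sv g y) (s * a ^ (q + 1))) :
    g * uU D h * g⁻¹ = uU D h' := by
  refine sv_ext fun x => ?_
  obtain ⟨u, rfl⟩ : ∃ u, sv g u = x := ⟨sv g⁻¹ x, sv_sv_inv g x⟩
  rw [sv_mul, sv_mul, sv_inv_sv, uU_v, uU_v, sv_add, sv_sub, sv_add, sv_smul, sv_smul, sv_smul, hg,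
    ← sv_herm g u (D.z p), ← sv_herm g u y, hg, herm_smul_right, herm_smul_right, pow_q_q D.hF]
  module

theorem heisOK_conj {g : ↥(SU N F q)} {p p' : Idx n} {a : F} (hg : sv g (D.z p) = a • D.z p') (ha : a ≠ 0)
    {y : Fin N → F} {s : F} (h : HeisOK D p y s) : HeisOK D p' (a ^ q • sv g y) (s * a ^ (q + 1)) := by
  have e0 : hermForm N F q (sv g y) (D.z p') = 0 := by
    have := sv_herm g y (D.z p)
    rw [h.1, hg, herm_smul_right] at this
    exact (mul_eq_zero.1 this).resolve_left (pow_ne_zero _ ha)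
  refine ⟨by rw [herm_smul_left, e0, mul_zero], ?_⟩
  rw [herm_smul_left, herm_smul_right, sv_herm, pow_q_q D.hF, mul_pow, pow_succ, mul_pow, pow_q_q D.hF]
  linear_combination a ^ q * a * h.2

/-- A commutator of Heisenberg elements gives a pair root element. -/
theorem uU_conj_far {p r : Idx n} (hpr : Far p r) {y y' : Fin N → F} {s s' : F} (h : HeisOK D p y s)
    (h' : HeisOK D r y' s') (hy : hermForm N F q y (D.z r) = 0) (hy' : hermForm N F q y' (D.z p) = 0) :
    uU D h' * uU D h * (uU D h')⁻¹ = uU D h * (uFrame D).X p r (-hermForm N F q y y') := by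
  have hp : sv (uU D h') (D.z p) = D.z p := by
    rw [uU_v, herm_eq_zero_comm D.hF hy', D.pairing, if_neg hpr.2]; module
  have hyy : sv (uU D h') y = y - hermForm N F q y y' • D.z r := by rw [uU_v, hy]; module
  refine sv_ext fun x => ?_
  obtain ⟨u, rfl⟩ : ∃ u, sv (uU D h') u = x := ⟨sv (uU D h')⁻¹ x, sv_sv_inv _ x⟩
  rw [sv_mul, sv_mul, sv_inv_sv, uU_v D h, sv_mul, ← uFrame_v D ((uFrame D).X p r _),
    Frame.X_v _ hpr, uU_v D h]
  simp only [uFrame_B, uFrame_z, uFrame_sigma, uFrame_eps, sv_add, sv_sub, sv_smul, hp, hyy]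
  have e1 : hermForm N F q u (D.z p) = hermForm N F q (sv (uU D h') u) (D.z p) := by
    conv_rhs => rw [← hp, sv_herm]
  have e2 : hermForm N F q u y = hermForm N F q (sv (uU D h') u) y -
      hermForm N F q y y' ^ q * hermForm N F q (sv (uU D h') u) (D.z r) := by
    rw [← sv_herm (uU D h') u y, hyy, herm_sub_right D.hF, herm_smul_right]
  rw [e1, e2]
  simp only [herm_add_left, herm_sub_left, herm_smul_left, D.isotropic, herm_eq_zero_comm D.hF hy,
    herm_eq_zero_comm D.hF h.1, D.pairing, if_neg hpr.symm.2, neg_pow_q D.hF]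
  module

/-- A pair root element and its translate by a unipotent give a transvection. -/
theorem uT_of_pair {p r : Idx n} (hpr : Far p r) (u : F)
    (h : HeisOK D p 0 (u - u ^ q)) :
    (uFrame D).up p r 1 * (uFrame D).X p r u * ((uFrame D).up p r 1)⁻¹ = (uFrame D).X p r u * uU D h := by
  set g := (uFrame D).up p r 1
  have hgp : Frame.v (uFrame D) g (D.z p) = D.z p :=
    Frame.up_fix (uFrame D) hpr 1 hpr.1.symm (opp_ne p).symm
  have hgr : Frame.v (uFrame D) g (D.z r) = D.z r + D.z p := by
    simpa [g, uFrame_z] using Frame.up_self (uFrame D) hpr 1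
  refine Frame.ext_v (uFrame D) fun x => ?_
  obtain ⟨w, rfl⟩ := Frame.v_surj (uFrame D) g x
  have hb := Frame.iso_v (uFrame D) g w (D.z p)
  have hc := Frame.iso_v (uFrame D) g w (D.z r)
  rw [hgp] at hb
  rw [hgr] at hc
  simp only [Frame.v_mul, Frame.v_inv, Frame.X_v _ hpr, Frame.v_sub, Frame.v_add, Frame.v_smul, uFrame_z, hgp,
    hgr, ← hb, ← hc]
  rw [uFrame_v D (uU D h), uU_v]
  simp only [herm_zero_right D.hF, smul_zero, zero_smul, add_zero, sub_zero]
  simp only [uFrame_B, uFrame_sigma, uFrame_eps, herm_add_left, herm_smul_left,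
    D.isotropic, D.pairing, if_neg hpr.2, herm_add_right D.hF]
  module

/-- Pair roots and Heisenberg elements along the frame generate `SU`. -/
theorem su_eq_top (h32 : ¬ (N = 3 ∧ q = 2)) {S : Subgroup ↥(SU N F q)}
    (hP : ∀ p r, Far p r → Frame.P (uFrame D) S p r)
    (hT : ∀ p s (h : HeisOK D p 0 s), uU D h ∈ S)
    (hkill : ∀ p y, hermForm N F q y (D.z p) ≠ 0 → (∀ r, Far p r → hermForm N F q y (D.z r) = 0) →
      ∃ g ∈ S, hermForm N F q (sv g y) (D.z p) ≠ 0 ∧
        (∀ r, Far p r → hermForm N F q (sv g y) (D.z r) = 0) ∧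
        ∀ x, Frame.Perp (uFrame D) x → hermForm N F q (sv g y) x = 0)
    (haniso : ∀ x, Frame.Perp (uFrame D) x → hermForm N F q x x = 0 → x = 0) : S = ⊤ := by
  rw [eq_top_iff, ← transvGroup_eq_top D.hF h32, transvGroup, Subgroup.closure_le]
  rintro A ⟨v, c, hv, hA⟩
  have hAv : ∀ x, sv A x = x + (c * hermForm N F q x v) • v := fun x => by
    rw [sv, hA, unitaryTransvection_eq, rankOne_mulVec, smul_smul, mul_comm]
  by_cases hvp : Frame.Perp (uFrame D) v
  · have hv0 : v = 0 := haniso v hvp hv
    rw [show A = 1 from sv_ext fun x => by rw [hAv, sv_one, hv0, smul_zero, add_zero]]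
    exact S.one_mem
  simp only [Frame.Perp, not_forall] at hvp
  obtain ⟨p, hp⟩ := hvp
  obtain ⟨g, hg, h1, h2, -⟩ := Frame.exists_clear (uFrame D) hP hp
  simp only [uFrame_B, uFrame_z, uFrame_v] at h1 h2 hp
  obtain ⟨g', hg', hb, hfar, hrest⟩ := hkill p (sv g v) (by rw [h1]; exact hp) h2
  set u := sv g' (sv g v) with hu
  have huu : hermForm N F q u u = 0 := by rw [hu, sv_herm, sv_herm, hv]
  have hdec := Frame.eq_frame_add_perp (uFrame D) u
  set w := Frame.perpPart (uFrame D) u
  have hw : Frame.Perp (uFrame D) w := Frame.perp_perpPart _ _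
  simp only [uFrame_B, uFrame_z, uFrame_eps, pairVal_one', div_one] at hdec
  rw [Finset.sum_eq_add p (opp p) (opp_ne p).symm
    (fun r _ hr => by rw [hfar (opp r) (Far.oppR ⟨hr.1, hr.2⟩), zero_smul]) (by simp) (by simp),
    opp_opp] at hdec
  set a := hermForm N F q u (D.z (opp p)) with ha
  set b := hermForm N F q u (D.z p) with hb'
  have hw0 : w = 0 := by
    have e := hrest w hw
    nth_rw 1 [hdec] at e
    rw [herm_add_left, herm_add_left, herm_smul_left, herm_smul_left] at e
    have z1 : hermForm N F q (D.z p) w = 0 := herm_eq_zero_comm D.hF (hw p)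
    have z2 : hermForm N F q (D.z (opp p)) w = 0 := herm_eq_zero_comm D.hF (hw (opp p))
    rw [z1, z2, mul_zero, mul_zero, zero_add, zero_add] at e
    exact haniso w hw e
  rw [hw0, add_zero] at hdec
  have hab : a * b ^ q + b * a ^ q = 0 := by
    rw [hdec] at huu
    simp only [herm_add_left, herm_add_right D.hF, herm_smul_left, herm_smul_right, D.isotropic, D.pairing,
      opp_opp, if_true] at huu
    linear_combination huu
  have hs : -a / b + (-a / b) ^ q = 0 := by
    rw [div_pow, neg_pow_q D.hF]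
    field_simp
    linear_combination -hab
  set T := uU D (heisOK_zero D p hs) with hTdef
  have hTu : sv T u = b • D.z (opp p) := by
    rw [uU_v, ← hb', herm_zero_right D.hF, div_mul_cancel₀ _ hb]
    nth_rw 1 [hdec]
    module
  have hbq : b ^ (q + 1) ≠ 0 := pow_ne_zero _ hb
  set G := T * g' * g with hG
  have hGv : sv G v = b • D.z (opp p) := by rw [hG, sv_mul, sv_mul, ← hu, hTu]
  have hGS : G ∈ S := S.mul_mem (S.mul_mem (hT _ _ _) hg') hg
  by_cases hv0 : v = 0
  · rw [show A = 1 from sv_ext fun x => by rw [hAv, sv_one, hv0, smul_zero, add_zero]]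
    exact S.one_mem
  have hc : c + c ^ q = 0 := by
    obtain ⟨x, hx⟩ : ∃ x, hermForm N F q x v = 1 := by
      refine ⟨(hermForm N F q (D.z p) v)⁻¹ • D.z p, ?_⟩
      rw [herm_smul_left, inv_mul_cancel₀]
      exact fun h => hp (herm_eq_zero_comm D.hF h)
    have := sv_herm A x x
    rw [hAv, hx, mul_one, herm_add_left, herm_add_right D.hF, herm_add_right D.hF, herm_smul_left, herm_smul_left,
      herm_smul_right, herm_smul_right, hv, hx, herm_conj D.hF x v, hx, one_pow] at this
    linear_combination this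
  have hok : HeisOK D (opp p) 0 (c * b ^ (q + 1)) := heisOK_zero D _ (by
    rw [mul_pow, ← pow_mul, mul_comm (q + 1) q, pow_mul, pow_succ (b ^ q), pow_q_q D.hF, pow_succ b]
    linear_combination b ^ q * b * hc)
  have e : A = G⁻¹ * uU D hok * G := by
    refine sv_ext fun x => ?_
    rw [sv_mul, sv_mul, uU_v, hAv, herm_zero_right D.hF, sv_add, sv_sub, sv_add, sv_smul, sv_smul, sv_smul,
      sv_inv_sv]
    have e1 : hermForm N F q x v = b ^ q * hermForm N F q (sv G x) (D.z (opp p)) := by
      rw [← sv_herm G x v, hGv, herm_smul_right]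
    have e2 : sv G⁻¹ (D.z (opp p)) = b⁻¹ • v := by
      rw [show D.z (opp p) = b⁻¹ • sv G v by rw [hGv, inv_smul_smul₀ hb], sv_smul, sv_inv_sv]
    have e3 : sv G⁻¹ (0 : Fin N → F) = 0 := by simpa using sv_smul G⁻¹ (0 : F) 0
    rw [e1, e2, e3, smul_zero, add_zero, zero_smul, sub_zero, smul_smul, pow_succ]
    congr 2
    field_simp
  rw [e]
  exact S.mul_mem (S.mul_mem (S.inv_mem hGS) (hT _ _ _)) hGS

end CfsgLib.TwoGenClassical
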