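import Cfsg.Agent.TwoGenClassical.UnitCore

/-! The hyperbolic frame of the standard hermitian form. -/

set_option autoImplicit false
set_option linter.unusedSectionVars false
set_option linter.style.haveILetI false

namespace CfsgLib.TwoGenClassical

open Cfsg CfsgLib.Unitary
open scoped Matrix MatrixGroups

variable {F : Type*} [Field F] [Fintype F] {N q : ℕ}

theorem herm_two_single (hF : Fintype.card F = q ^ 2) (a b c d : Fin N) (x y u w : F) :
    hermForm N F q (x • Pi.single a 1 + y • Pi.single b 1) (u • Pi.single c 1 + w • Pi.single d 1) =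
      x * u ^ q * (if a = c then 1 else 0) + x * w ^ q * (if a = d then 1 else 0) +
        (y * u ^ q * (if b = c then 1 else 0) + y * w ^ q * (if b = d then 1 else 0)) := by
  rw [herm_add_left, herm_smul_left, herm_smul_left, herm_add_right hF, herm_add_right hF, herm_smul_right,
    herm_smul_right, herm_smul_right, herm_smul_right, herm_single_single hF, herm_single_single hF,
    herm_single_single hF, herm_single_single hF]
  ring

/-- Standard frames exist; coordinates past `2m` are perpendicular. -/
theorem exists_uData (hF : Fintype.card F = q ^ 2) {m : ℕ} (hm : 2 * m ≤ N) :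
    ∃ D : UData F N q m,
      (∀ x : Fin N → F, (∀ p, hermForm N F q x (D.z p) = 0) → ∀ i : Fin N, i.val < 2 * m → x i = 0) ∧
      (∀ (p : Idx m) (i : Fin N), 2 * m ≤ i.val → D.z p i = 0) := by
  classical
  obtain ⟨α, hα⟩ := exists_norm_eq hF (a := (-1 : F)) (by rw [neg_pow_q hF, one_pow])
  obtain ⟨t, ht, ht2⟩ := exists_norm_one_ne_inv hF
  have hα0 : α ≠ 0 := by rintro rfl; rw [zero_pow (by omega)] at hα; exact one_ne_zero (by linear_combination hα)
  have ht1 : t ≠ 1 := fun h => ht2 (by rw [h, one_pow])
  set β := α * t with hβdef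
  have hβ : β ^ (q + 1) = -1 := by rw [hβdef, mul_pow, hα, ht, mul_one]
  have hne : 1 + α * β ^ q ≠ 0 := by
    intro h
    apply ht1
    have h1 : t ^ q = 1 := by
      rw [hβdef, mul_pow] at h
      have : α * α ^ q = -1 := by rw [← hα]; ring
      linear_combination t ^ q * this - h
    have := pow_q_q hF t
    rw [h1, one_pow] at this
    exact this.symm
  set c := ((1 + α * β ^ q)⁻¹) ^ q with hcdef
  have hc : c ^ q * (1 + α * β ^ q) = 1 := by rw [hcdef, pow_q_q hF, inv_mul_cancel₀ hne]
  have hc' : c * (1 + β * α ^ q) = 1 := by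
    have := congrArg (· ^ q) hc
    simp only [mul_pow, pow_q_q hF, add_pow_q hF, one_pow] at this
    linear_combination this
  let i0 : Fin m → Fin N := fun i => ⟨2 * i.val, by have := i.isLt; omega⟩
  let i1 : Fin m → Fin N := fun i => ⟨2 * i.val + 1, by have := i.isLt; omega⟩
  let z : Idx m → Fin N → F := Sum.elim
    (fun i => (1 : F) • Pi.single (i0 i) 1 + α • Pi.single (i1 i) 1)
    (fun i => c • Pi.single (i0 i) 1 + (c * β) • Pi.single (i1 i) 1)
  have h00 : ∀ i j, i0 i = i0 j ↔ i = j := fun i j => by simp [i0, Fin.ext_iff]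
  have h11 : ∀ i j, i1 i = i1 j ↔ i = j := fun i j => by simp [i1, Fin.ext_iff]
  have h01 : ∀ i j, i0 i ≠ i1 j := fun i j => by simp only [i0, i1, ne_eq, Fin.ext_iff]; omega
  have hpair : ∀ p r, hermForm N F q (z p) (z r) = if r = opp p then 1 else 0 := by
    intro p r
    rcases p with i | i <;> rcases r with j | j <;>
      simp only [z, Sum.elim_inl, Sum.elim_inr, herm_two_single hF, h00, h11, if_neg (h01 _ _),
        if_neg (h01 _ _).symm, opp, Sum.swap_inl, Sum.swap_inr, reduceCtorEq, if_false, Sum.inl.injEq,
        Sum.inr.injEq, mul_zero, add_zero, zero_add, one_pow, mul_pow]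
    · by_cases h : i = j
      · simp only [h, if_true]; linear_combination hα
      · simp only [h, if_false]; ring
    · by_cases h : i = j
      · simp only [h, if_true]; linear_combination hc
      · simp only [h, Ne.symm h, if_false]; ring
    · by_cases h : i = j
      · simp only [h, if_true]; linear_combination hc'
      · simp only [h, Ne.symm h, if_false]; ring
    · by_cases h : i = j
      · simp only [h, if_true]; linear_combination (c * c ^ q) * hβ
      · simp only [h, if_false]; ring
  refine ⟨⟨hF, z, hpair⟩, fun x hx i hi => ?_, fun p i hi => ?_⟩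
  · have hq0 : q ≠ 0 := by have := two_le_q hF; omega
    let j : Fin m := ⟨i.val / 2, by omega⟩
    have e1 := hx (.inl j)
    have e2 := hx (.inr j)
    simp only [z, Sum.elim_inl, Sum.elim_inr, herm_add_right hF, herm_smul_right, herm_single_right _ _ hq0,
      mul_pow, one_pow, one_mul] at e1 e2
    have hcq : c ^ q ≠ 0 := fun e => by rw [e, zero_mul] at hc; exact zero_ne_one hc
    have e2' : x (i0 j) + β ^ q * x (i1 j) = 0 := by
      refine (mul_eq_zero.1 (?_ : c ^ q * (x (i0 j) + β ^ q * x (i1 j)) = 0)).resolve_left hcq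
      linear_combination e2
    have hab : α ^ q ≠ β ^ q := by
      intro h
      have : α = β := by rw [← pow_q_q hF α, h, pow_q_q hF]
      apply ht1
      have : α * t = α * 1 := by rw [mul_one, ← hβdef]; exact this.symm
      exact mul_left_cancel₀ hα0 this
    have hx1 : x (i1 j) = 0 := by
      refine (mul_eq_zero.1 (?_ : (α ^ q - β ^ q) * x (i1 j) = 0)).resolve_left (sub_ne_zero.2 hab)
      linear_combination e1 - e2'
    have hx0 : x (i0 j) = 0 := by rw [hx1, mul_zero, add_zero] at e2'; exact e2'
    rcases Nat.even_or_odd i.val with ⟨u, hu⟩ | ⟨u, hu⟩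
    · rw [show i = i0 j from Fin.ext (by simp [i0, j]; omega)]; exact hx0
    · rw [show i = i1 j from Fin.ext (by simp [i1, j]; omega)]; exact hx1
  · rcases p with j | j <;> (have := j.isLt; simp [z, i0, i1, Fin.ext_iff,
      show i.val ≠ 2 * j.val by omega, show i.val ≠ 2 * j.val + 1 by omega])

end CfsgLib.TwoGenClassical
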