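import Cfsg.Agent.TwoGenClassical.UnitShift
import Cfsg.Agent.TwoGenClassical.UnitData

/-! Two-generation of the special unitary groups. -/

set_option autoImplicit false
set_option linter.unusedSectionVars false
set_option linter.style.haveILetI false

namespace CfsgLib.TwoGenClassical

open Cfsg CfsgLib.Unitary
open scoped Matrix MatrixGroups

variable {F : Type*} [Field F] [Fintype F] {N q n : ℕ}

section Field

theorem exists_gen_q (hF : Fintype.card F = q ^ 2) :
    ∃ k : F, k ≠ 0 ∧ orderOf k = q ^ 2 - 1 ∧ orderOf (k ^ q) = q ^ 2 - 1 := by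
  obtain ⟨k, -, hord⟩ := exists_gen (F := F)
  rw [Nat.card_eq_fintype_card, hF] at hord
  refine ⟨k, k.ne_zero, hord, ?_⟩
  rw [Nat.Coprime.orderOf_pow, hord]
  rw [hord]
  have hq := two_le_q hF
  rw [Nat.coprime_comm]
  apply Nat.coprime_of_dvd
  intro d hd h1 h2
  have hsq : d ∣ q ^ 2 := h1.trans (dvd_pow_self q two_ne_zero)
  have h3 := Nat.dvd_sub hsq h2
  rw [Nat.sub_sub_self (Nat.one_le_pow _ _ (by omega)), Nat.dvd_one] at h3
  exact hd.ne_one h3

/-- A power of a generator with a small common divisor generates the field. -/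
theorem closure_pow_top (hF : Fintype.card F = q ^ 2) {k : F} (hk : k ≠ 0) (hord : orderOf k = q ^ 2 - 1)
    {e M : ℕ} (hM : ∀ j, q ^ 2 - 1 ∣ e * j → q ^ 2 - 1 ∣ M * j) (hMq : M ≤ q) (hM0 : 0 < M) :
    Subring.closure ({k ^ e} : Set F) = ⊤ ∧ k ^ e ≠ 1 := by
  have hq := two_le_q hF
  have hqq : 4 ≤ q ^ 2 := by nlinarith
  have hdvd : q ^ 2 - 1 ∣ M * orderOf (k ^ e) := by
    refine hM _ ?_
    rw [← hord, orderOf_dvd_iff_pow_eq_one, pow_mul, pow_orderOf_eq_one]
  have hkM : k ^ e ≠ 0 := pow_ne_zero _ hk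
  have hpos : 0 < orderOf (k ^ e) := by
    refine orderOf_pos_iff.2 (isOfFinOrder_iff_pow_eq_one.2 ⟨Fintype.card F - 1, ?_, ?_⟩)
    · rw [hF]; omega
    · exact FiniteField.pow_card_sub_one_eq_one _ hkM
  have hle := Nat.le_of_dvd (Nat.mul_pos hM0 hpos) hdvd
  have hlow : q ≤ orderOf (k ^ e) := by
    by_contra h
    push Not at h
    have h1 : M * orderOf (k ^ e) ≤ q * (q - 1) := Nat.mul_le_mul hMq (by omega)
    have h2 : q * (q - 1) < q ^ 2 - 1 := by
      obtain ⟨u, rfl⟩ : ∃ u, q = u + 1 := ⟨q - 1, by omega⟩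
      simp only [Nat.add_sub_cancel]
      have : (u + 1) ^ 2 = u * u + 2 * u + 1 := by ring
      rw [this, Nat.add_mul]
      omega
    omega
  refine ⟨closure_eq_top_of_order hkM fun r hr => ?_, fun h => ?_⟩
  · rw [Nat.card_eq_fintype_card, hF] at hr
    exact ((Nat.pow_le_pow_iff_left two_ne_zero).1 hr).trans hlow
  · rw [h, orderOf_one] at hlow
    omega

theorem pow_ne_one_of_lt {k : F} {e : ℕ} (hord : orderOf k = q ^ 2 - 1) (he : 0 < e) (h : e < q ^ 2 - 1) :
    k ^ e ≠ 1 := fun h' => by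
  have := Nat.le_of_dvd he (orderOf_dvd_of_pow_eq_one h')
  omega

end Field

variable [NeZero n] (D : UData F N q n)

/-- The parameters `t` of Heisenberg elements `(t v, s)` inside a subgroup. -/
def heisParam (S : Subgroup ↥(SU N F q)) (p : Idx n) (v : Fin N → F) : AddSubgroup F where
  carrier := {t | ∃ s, ∃ h : HeisOK D p (t • v) s, uU D h ∈ S}
  zero_mem' := by
    have h0 : HeisOK D p ((0 : F) • v) 0 := by
      rw [zero_smul]
      exact heisOK_zero D p (by rw [zero_pow (by have := two_le_q D.hF; omega), add_zero])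
    refine ⟨0, h0, ?_⟩
    rw [uU_congr D h0 (heisOK_zero D p (by rw [zero_pow (by have := two_le_q D.hF; omega), add_zero]))
      (zero_smul _ _) rfl, uU_one]
    exact S.one_mem
  add_mem' := by
    rintro a b ⟨s, h, hS⟩ ⟨s', h', hS'⟩
    have hab := heisOK_add D h h'
    rw [← add_smul] at hab
    refine ⟨_, hab, ?_⟩
    rw [uU_congr D hab (heisOK_add D h h') (add_smul _ _ _) rfl, ← uU_mul D h h']
    exact S.mul_mem hS hS'
  neg_mem' := by
    rintro a ⟨s, h, hS⟩
    have hn := heisOK_neg D h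
    rw [← neg_smul] at hn
    refine ⟨_, hn, ?_⟩
    rw [uU_congr D hn (heisOK_neg D h) (neg_smul _ _) rfl, ← uU_inv D h]
    exact S.inv_mem hS

/-- Steinberg's commutator inside a Heisenberg group fills it. -/
theorem heis_trick (S : Subgroup ↥(SU N F q)) {z0 z1 w : ↥(SU N F q)} {p : Idx n} {v : Fin N → F}
    {s : F} (hok : HeisOK D p v s) (hz : z0 ∈ S) (hy : uU D hok * w ∈ S) (hw : w * z0 * w⁻¹ = z1)
    (hcomm : z0 * z1 = z1 * z0) (hv1 : hermForm N F q v v = 1) {a b c d : F} (ha : a ≠ 0) (hb : b ≠ 0)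
    (hza : sv z0 (D.z p) = a • D.z p) (hzc : sv z0 v = c • v)
    (hzb : sv z1 (D.z p) = b • D.z p) (hzd : sv z1 v = d • v)
    (hlam : Subring.closure ({a ^ q * c} : Set F) = ⊤) (hlam1 : a ^ q * c ≠ 1) (hmu1 : b ^ q * d ≠ 1)
    (hperp : ∀ y, Frame.Perp (uFrame D) y → ∃ t : F, y = t • v) :
    HFull D S p := by
  set B := uU D hok with hB
  set g := B * z1 * B⁻¹ with hg
  have hgS : g ∈ S := by
    have := S.mul_mem (S.mul_mem hy hz) (S.inv_mem hy)
    convert this using 1
    rw [hg, ← hw]; group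
  have hel := S.mul_mem (S.mul_mem (S.mul_mem hz hgS) (S.inv_mem hz)) (S.inv_mem hgS)
  have hBi := heisOK_neg D hok
  have k1 := heisOK_conj D hza ha hok
  have k2 := heisOK_conj D hza ha hBi
  have k3 := heisOK_conj D hzb hb k2
  have k4 := heisOK_conj D hzb hb hok
  have e : z0 * g * z0⁻¹ * g⁻¹ = uU D k1 * uU D k3 * uU D k4 * uU D hBi := by
    rw [← uU_conj D hza hok k1, ← uU_conj D hzb k2 k3, ← uU_conj D hza hBi k2, ← uU_conj D hzb hok k4,
      ← uU_inv D hok, hg, ← hB]
    calc z0 * (B * z1 * B⁻¹) * z0⁻¹ * (B * z1 * B⁻¹)⁻¹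
        = z0 * B * z0⁻¹ * ((z0 * z1) * B⁻¹ * z0⁻¹ * z1⁻¹) * (z1 * B * z1⁻¹) * (z1 * z1⁻¹) * B⁻¹ := by group
      _ = _ := by rw [hcomm]; group
  rw [e, uU_mul D k1 k3, uU_mul D _ k4, uU_mul D _ hBi] at hel
  have hy0 : a ^ q • sv z0 v + b ^ q • sv z1 (a ^ q • sv z0 (-v)) + b ^ q • sv z1 v + -v =
      ((a ^ q * c - 1) * (1 - b ^ q * d)) • v := by
    have e1 : sv z0 (-v) = (-c) • v := by
      rw [← neg_one_smul F v, sv_smul, hzc, smul_smul, neg_one_mul]
    rw [hzc, e1, smul_smul, smul_smul, sv_smul, hzd]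
    module
  have hA : ∀ t, t ∈ heisParam D S p v := by
    refine eq_top_of_stable _ hlam (fun u hu t ht => ?_) (c := (a ^ q * c - 1) * (1 - b ^ q * d)) ?_
      (mul_ne_zero (sub_ne_zero.2 hlam1) (sub_ne_zero.2 (Ne.symm hmu1)))
    · rw [Set.mem_singleton_iff.1 hu]
      obtain ⟨r, h, hS⟩ := ht
      have k := heisOK_conj D hza ha h
      have e1 : a ^ q • sv z0 (t • v) = (a ^ q * c * t) • v := by rw [sv_smul, hzc]; module
      have k' : HeisOK D p ((a ^ q * c * t) • v) (r * a ^ (q + 1)) := e1 ▸ k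
      refine ⟨_, k', ?_⟩
      rw [uU_congr D k' k e1.symm rfl, ← uU_conj D hza h k]
      exact S.mul_mem (S.mul_mem hz hS) (S.inv_mem hz)
    · have k := heisOK_add D (heisOK_add D (heisOK_add D k1 k3) k4) hBi
      have k' := hy0 ▸ k
      refine ⟨_, k', ?_⟩
      rw [uU_congr D k' k hy0.symm rfl]
      exact hel
  have hT : ∀ r (h : HeisOK D p 0 r), uU D h ∈ S := by
    intro r h
    have hr : r + r ^ q = 0 := by
      have := h.2; rw [herm_zero_left, add_zero] at this; exact this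
    obtain ⟨u, hu⟩ := trace_zero_eq_sub D.hF hr
    obtain ⟨s1, g1, m1⟩ := hA 1
    obtain ⟨s2, g2, m2⟩ := hA (u ^ q)
    have := S.mul_mem (S.mul_mem m1 m2) (S.inv_mem (S.mul_mem m2 m1))
    rw [uU_mul, uU_mul, uU_inv, uU_mul] at this
    rw [uU_congr D _ h] at this
    · exact this
    · module
    · rw [← hu]
      have hs1 := g1.2
      have hs2 := g2.2
      have hq0 : q ≠ 0 := by have := two_le_q D.hF; omega
      simp only [herm_smul_left, herm_smul_right, herm_add_left, herm_add_right D.hF, herm_neg_left,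
        herm_neg_right D.hF, hv1, one_pow, one_mul, mul_one, sub_pow_q D.hF, add_pow_q D.hF, neg_pow_q D.hF,
        mul_pow, pow_q_q D.hF, zero_pow hq0] at hs1 hs2 ⊢
      linear_combination hs1 + hs2
  intro y r h hy'
  obtain ⟨t, rfl⟩ := hperp y hy'
  obtain ⟨s1, g1, m1⟩ := hA t
  have hdiff : (r - s1) + (r - s1) ^ q = 0 := by
    rw [sub_pow_q D.hF]; linear_combination h.2 - g1.2
  have := S.mul_mem m1 (hT _ (heisOK_zero D p hdiff))
  rw [uU_mul] at this
  rwa [uU_congr D _ h (add_zero _) (by rw [herm_zero_left]; ring)] at this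

/-- The torus element of a pair root and its eigenvalues. -/
theorem uTor_spec {p r : Idx n} (h : Far p r) {k : F} (hk : k ≠ 0) :
    ∃ d : Idx n → F, (∀ i, sv ((uFrame D).H p r k) (D.z i) = d i • D.z i) ∧ d p = k ∧ d r = k⁻¹ ∧
      d (opp p) = (k ^ q)⁻¹ ∧ d (opp r) = k ^ q ∧
      (∀ i, i ≠ p → i ≠ r → i ≠ opp p → i ≠ opp r → d i = 1) ∧ ∀ i, d i ≠ 0 := by
  refine ⟨fun i => if i = p then k else if i = r then k⁻¹ else if i = opp p then (k ^ q)⁻¹
    else if i = opp r then k ^ q else 1, fun i => ?_, by simp, by simp [h.1], ?_, ?_, ?_, fun i => ?_⟩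
  · dsimp only
    by_cases h1 : i = p
    · rw [if_pos h1, h1]; exact Frame.H_left (uFrame D) h hk
    by_cases h2 : i = r
    · rw [if_neg h1, if_pos h2, h2]; exact Frame.H_right (uFrame D) h hk
    by_cases h3 : i = opp p
    · rw [if_neg h1, if_neg h2, if_pos h3, h3]; exact Frame.H_opp_left (uFrame D) h hk
    by_cases h4 : i = opp r
    · rw [if_neg h1, if_neg h2, if_neg h3, if_pos h4, h4]; exact Frame.H_opp_right (uFrame D) h hk
    rw [if_neg h1, if_neg h2, if_neg h3, if_neg h4, one_smul]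
    exact Frame.H_fix (uFrame D) h _ h1 h2 h3 h4
  · simp [opp_ne, h.2.symm]
  · have e : opp r ≠ opp p := fun e => h.1 (by simpa using congrArg opp e)
    simp [opp_ne, h.oppR.1, e]
  · intro i h1 h2 h3 h4; simp [h1, h2, h3, h4]
  · dsimp only; split_ifs <;> simp [hk]

theorem shift_prev {w : ↥(SU N F q)} (hw : Frame.IsShift (uFrame D) w) :
    Frame.Maps (uFrame D) w (pos n (2 * n - 1)) (pos n 0) := by
  have h := hw (2 * n - 1)
  have := NeZero.pos n
  rwa [show 2 * n - 1 + 1 = 0 + 2 * n by omega, pos_add_period] at h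

theorem pos_basic (hn : 2 ≤ n) :
    pos n 0 = Sum.inl ⟨0, by omega⟩ ∧ pos n 1 = Sum.inl ⟨1, hn⟩ ∧ pos n n = Sum.inr ⟨0, by omega⟩ ∧
      pos n (n + 1) = Sum.inr ⟨1, hn⟩ ∧ pos n (2 * n - 1) = Sum.inr ⟨n - 1, by omega⟩ := by
  have m1 : 1 % (2 * n) = 1 := Nat.mod_eq_of_lt (by omega)
  have mn : n % (2 * n) = n := Nat.mod_eq_of_lt (by omega)
  have mn1 : (n + 1) % (2 * n) = n + 1 := Nat.mod_eq_of_lt (by omega)
  have ml : (2 * n - 1) % (2 * n) = 2 * n - 1 := Nat.mod_eq_of_lt (by omega)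
  refine ⟨?_, ?_, ?_, ?_, ?_⟩
  · rw [pos_lt (by rw [Nat.zero_mod]; omega)]; simp
  · rw [pos_lt (by omega)]; simp [m1]
  · rw [pos_ge (by omega)]; simp [mn]
  · rw [pos_ge (by omega)]; simp [mn1]
  · rw [pos_ge (by omega)]; simp only [ml, Sum.inr.injEq, Fin.mk.injEq]; omega

theorem commute_conj_shift {w z0 : ↥(SU N F q)} (hw : Frame.IsShift (uFrame D) w) (d : Idx n → F)
    (hd : ∀ i, sv z0 (D.z i) = d i • D.z i)
    (hp0 : ∀ x, Frame.Perp (uFrame D) x → sv z0 x = x)
    (hpw : ∀ x, Frame.Perp (uFrame D) x → sv w x = x) :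
    z0 * (w * z0 * w⁻¹) = w * z0 * w⁻¹ * z0 ∧
      ∀ x, Frame.Perp (uFrame D) x → sv (w * z0 * w⁻¹) x = x := by
  have hfix : ∀ x, Frame.Perp (uFrame D) x → sv (w * z0 * w⁻¹) x = x := fun x hx => by
    have := Frame.conj_perp (uFrame D) (hpw x hx) (hp0 x hx)
    rwa [uFrame_v] at this
  refine ⟨?_, hfix⟩
  have he : ∀ i, ∃ c, Frame.v (uFrame D) (w * z0 * w⁻¹) ((uFrame D).z i) = c • (uFrame D).z i := fun i => by
    obtain ⟨i', hi'⟩ := Frame.IsShift.onto (uFrame D) hw i
    exact ⟨_, Frame.conj_eigen (uFrame D) hi' (hd i')⟩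
  choose d' hd' using he
  refine Frame.commute_of_eigen (uFrame D) d d' hd hd' fun x hx => ?_
  simp only [uFrame_v]
  rw [hfix x hx, hp0 x hx, hfix x hx]

theorem su_even (hn : 2 ≤ n) (hN : ∀ x, Frame.Perp (uFrame D) x → x = 0) (h32 : ¬ (N = 3 ∧ q = 2)) :
    ∃ a b : ↥(SU N F q), Subgroup.closure ({a, b} : Set ↥(SU N F q)) = ⊤ := by
  obtain ⟨k, hk, hord, hordq⟩ := exists_gen_q D.hF
  have hq := two_le_q D.hF
  obtain ⟨p0, p1, pn, pn1, pl⟩ := pos_basic (n := n) hn
  set e0 : Idx n := Sum.inl ⟨0, by omega⟩ with he0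
  set e1 : Idx n := Sum.inl ⟨1, hn⟩ with he1
  set f1 : Idx n := Sum.inr ⟨1, hn⟩ with hf1
  have hfar : Far e0 e1 := ⟨by simp [e0, e1], by simp [e0, e1, opp]⟩
  have hfar' : Far e0 f1 := ⟨by simp [e0, f1], by simp [e0, f1, opp]⟩
  set z0 := (uFrame D).H e0 e1 k
  obtain ⟨d, hd, d0, d1, d0', d1', doth, hdne⟩ := uTor_spec D hfar hk
  have hp0 : ∀ x, Frame.Perp (uFrame D) x → sv z0 x = x := fun x hx => Frame.H_perp (uFrame D) hfar _ hx
  have hdv : ∀ i, Frame.v (uFrame D) z0 ((uFrame D).z i) = d i • (uFrame D).z i := hd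
  set w := uShift D
  have hw := uShift_isShift D
  refine ⟨(uFrame D).X e0 f1 1 * w, z0, ?_⟩
  set S := Subgroup.closure ({(uFrame D).X e0 f1 1 * w, z0} : Set ↥(SU N F q))
  have hzS : z0 ∈ S := Subgroup.subset_closure (by simp)
  have hyS : (uFrame D).X e0 f1 1 * w ∈ S := Subgroup.subset_closure (by simp)
  obtain ⟨hcomm, -⟩ := commute_conj_shift D hw d hd hp0 (fun x hx => uShift_perp D hx)
  set z1 := w * z0 * w⁻¹
  have z1e0 : sv z1 (D.z e0) = d (pos n (2 * n - 1)) • D.z e0 := by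
    have := Frame.conj_eigen (uFrame D) (shift_prev D hw) (hdv _)
    rwa [p0] at this
  have z1f1 : sv z1 (D.z f1) = (k ^ q)⁻¹ • D.z f1 := by
    have := Frame.conj_eigen (uFrame D) (hw n) (hdv (pos n n))
    rwa [pn1, show d (pos n n) = (k ^ q)⁻¹ by rw [pn]; exact d0'] at this
  have z0e0 : sv z0 (D.z e0) = k • D.z e0 := by rw [hd, d0]
  have z0f1 : sv z0 (D.z f1) = k ^ q • D.z f1 := by rw [hd, show d f1 = k ^ q from d1']
  have hlast : d (pos n (2 * n - 1)) = k ^ q ∨ d (pos n (2 * n - 1)) = 1 := by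
    rw [pl]
    rcases eq_or_ne n 2 with h | h
    · left; subst h; exact d1'
    · right; exact doth _ (by simp [e0]) (by simp [e1]) (by simp [e0, opp, Fin.ext_iff]; omega)
        (by simp [e1, opp, Fin.ext_iff]; omega)
  have hlam := closure_pow_top D.hF (k := k ^ q) (pow_ne_zero _ hk) hordq (e := 2) (M := 2) (fun j h => h) hq two_pos
  set l : F := (k ^ q) ^ 2 with hl
  set mu : F := d (pos n (2 * n - 1)) ^ q * (k ^ q)⁻¹ with hmu
  have hmu1 : mu ≠ 1 := by
    rw [hmu]
    rcases hlast with h | h <;> rw [h]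
    · intro e
      have e' : k = k ^ q := by
        rw [pow_q_q D.hF, mul_inv_eq_one₀ (pow_ne_zero _ hk)] at e
        exact e
      refine pow_ne_one_of_lt hord (by omega : 0 < q - 1)
        (by have : q + q ≤ q ^ 2 := by nlinarith
            omega) ?_
      have : k ^ (q - 1) * k = 1 * k := by
        rw [← pow_succ, Nat.sub_add_cancel (by omega), one_mul]; exact e'.symm
      exact mul_right_cancel₀ hk this
    · intro e
      rw [one_pow, one_mul, inv_eq_one] at e
      exact pow_ne_one_of_lt hordq (by omega : 0 < 1) (by nlinarith [Nat.sub_add_cancel (show 1 ≤ q ^ 2 by nlinarith)]) (by rw [pow_one, e])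
  have hφ : ∀ t, z0 * (uFrame D).X e0 f1 t * z0⁻¹ = (uFrame D).X e0 f1 (l * t) := fun t => by
    rw [Frame.X_conj (uFrame D) (g := z0) hfar' hfar' (a := k) (b := k ^ q) z0e0 z0f1, uFrame_sigma, hl, sq]
  have hψ : ∀ t, z1 * (uFrame D).X e0 f1 t * z1⁻¹ = (uFrame D).X e0 f1 (mu * t) := fun t => by
    rw [Frame.X_conj (uFrame D) (g := z1) hfar' hfar' (a := d (pos n (2 * n - 1))) (b := (k ^ q)⁻¹) z1e0 z1f1,
      uFrame_sigma]
  have hstart := commutator_trick (fun t => (uFrame D).X e0 f1 t) (Frame.X_add (uFrame D) hfar') S hzS hyS rfl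
    hcomm hφ hψ
  have hA : ∀ t, t ∈ Frame.param (uFrame D) S hfar' := by
    refine eq_top_of_stable _ hlam.1 (fun u hu t ht => ?_)
      (c := l * (1 + mu * -1) - (1 + mu * -1)) hstart ?_
    · rw [Set.mem_singleton_iff.1 hu]
      have := S.mul_mem (S.mul_mem hzS ht) (S.inv_mem hzS)
      rwa [hφ] at this
    · rw [show l * (1 + mu * -1) - (1 + mu * -1) = (l - 1) * (1 - mu) by ring]
      exact mul_ne_zero (sub_ne_zero.2 hlam.2) (sub_ne_zero.2 (Ne.symm hmu1))
  have hwS : w ∈ S := by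
    have := S.mul_mem (S.inv_mem (hA 1)) hyS
    rwa [inv_mul_cancel_left] at this
  have hP := Frame.P_all (uFrame D) hw hwS hn (fun t => by rw [p0, pn1]; exact hA t)
  have hH0 : HFull D S (pos n 0) := by
    rw [p0]
    intro y s h hy
    obtain rfl := hN y hy
    have hs : s + s ^ q = 0 := by have := h.2; rw [herm_zero_left, add_zero] at this; exact this
    obtain ⟨u, rfl⟩ := trace_zero_eq_sub D.hF hs
    have hg : (uFrame D).up e0 e1 1 ∈ S := hP _ _ hfar.oppR _
    have hX := hP _ _ hfar u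
    have := S.mul_mem (S.inv_mem hX) (S.mul_mem (S.mul_mem hg hX) (S.inv_mem hg))
    rwa [uT_of_pair D hfar u h, inv_mul_cancel_left] at this
  exact su_finish D h32 hP (HFull.all D hwS hH0) (fun x hx _ => hN x hx)

theorem su_odd (hn : 2 ≤ n) {v : Fin N → F} (hv : Frame.Perp (uFrame D) v) (hv1 : hermForm N F q v v = 1)
    (hperp : ∀ x, Frame.Perp (uFrame D) x → ∃ t : F, x = t • v) (h32 : ¬ (N = 3 ∧ q = 2)) :
    ∃ a b : ↥(SU N F q), Subgroup.closure ({a, b} : Set ↥(SU N F q)) = ⊤ := by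
  obtain ⟨k, hk, hord, hordq⟩ := exists_gen_q D.hF
  have hq := two_le_q D.hF
  obtain ⟨p0, p1, -, pn1, -⟩ := pos_basic (n := n) hn
  set e0 : Idx n := Sum.inl ⟨0, by omega⟩ with he0
  set e1 : Idx n := Sum.inl ⟨1, hn⟩ with he1
  have hfar : Far e0 e1 := ⟨by simp [e0, e1], by simp [e0, e1, opp]⟩
  set z0 := (uFrame D).H e0 e1 k
  obtain ⟨d, hd, d0, d1, -, -, -, -⟩ := uTor_spec D hfar hk
  have hp0 : ∀ x, Frame.Perp (uFrame D) x → sv z0 x = x := fun x hx => Frame.H_perp (uFrame D) hfar _ hx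
  have hdv : ∀ i, Frame.v (uFrame D) z0 ((uFrame D).z i) = d i • (uFrame D).z i := hd
  set w := uShift D
  have hw := uShift_isShift D
  obtain ⟨s, hs⟩ := exists_trace_eq D.hF (a := (-1 : F)) (by rw [neg_pow_q D.hF, one_pow])
  have hok : HeisOK D e1 v s := ⟨hv e1, by rw [hv1]; linear_combination hs⟩
  refine ⟨uU D hok * w, z0, ?_⟩
  set S := Subgroup.closure ({uU D hok * w, z0} : Set ↥(SU N F q))
  have hzS : z0 ∈ S := Subgroup.subset_closure (by simp)
  have hyS : uU D hok * w ∈ S := Subgroup.subset_closure (by simp)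
  obtain ⟨hcomm, hz1p⟩ := commute_conj_shift D hw d hd hp0 (fun x hx => uShift_perp D hx)
  have z1e1 : sv (w * z0 * w⁻¹) (D.z e1) = k • D.z e1 := by
    have := Frame.conj_eigen (uFrame D) (hw 0) (hdv (pos n 0))
    rwa [zero_add, p1, show d (pos n 0) = k by rw [p0]; exact d0] at this
  have hl := closure_pow_top D.hF (k := k⁻¹) (inv_ne_zero hk) (by rw [← hord]; exact orderOf_eq_orderOf_iff.2 fun j => by rw [inv_pow, inv_eq_one])
    (e := q) (M := 1) (fun j h => by
      rw [one_mul]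
      refine (Nat.Coprime.dvd_of_dvd_mul_left ?_ h)
      rw [Nat.coprime_comm]
      apply Nat.coprime_of_dvd
      intro r hr h1 h2
      have h3 := Nat.dvd_sub (h1.trans (dvd_pow_self q two_ne_zero)) h2
      rw [Nat.sub_sub_self (Nat.one_le_pow _ _ (by omega)), Nat.dvd_one] at h3
      exact hr.ne_one h3) (by omega) Nat.one_pos
  have hfull : HFull D S e1 := by
    refine heis_trick D S hok hzS hyS rfl hcomm hv1 (a := k⁻¹) (b := k) (c := 1) (d := 1) (inv_ne_zero hk) hk
      (by rw [hd, d1]) (by rw [hp0 v hv, one_smul]) z1e1 (by rw [hz1p v hv, one_smul]) (by rw [mul_one]; exact hl.1)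
      (by rw [mul_one]; exact hl.2) ?_ hperp
    rw [mul_one]
    intro h
    rw [h, orderOf_one] at hordq
    have : 4 ≤ q ^ 2 := by nlinarith
    omega
  have hwS : w ∈ S := by
    have := S.mul_mem (S.inv_mem (hfull v s hok hv)) hyS
    rwa [inv_mul_cancel_left] at this
  have hall := HFull.all D hwS (j := 1) (by rw [p1]; exact hfull)
  have hfar2 : Far e0 (Sum.inr ⟨1, hn⟩ : Idx n) := ⟨by simp [e0], by simp [e0, opp]⟩
  have hP0 : Frame.P (uFrame D) S (pos n 0) (pos n (n + 1)) := by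
    intro t
    rw [p0, pn1]
    have hyP : Frame.Perp (uFrame D) ((-t) • v) := fun r => by rw [Frame.smul_left, hv r, mul_zero]
    obtain ⟨s1, hs1⟩ := exists_trace_eq D.hF (a := -hermForm N F q ((-t) • v) ((-t) • v))
      (by rw [neg_pow_q D.hF, herm_self_fixed D.hF])
    have h1 : HeisOK D e0 ((-t) • v) s1 := ⟨hyP e0, by linear_combination hs1⟩
    have h2 : HeisOK D (Sum.inr ⟨1, hn⟩ : Idx n) v s := ⟨hv _, hok.2⟩
    have m1 := hall e0 _ _ h1 hyP
    have m2 := hall _ _ _ h2 hv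
    have := S.mul_mem (S.inv_mem m1) (S.mul_mem (S.mul_mem m2 m1) (S.inv_mem m2))
    rw [uU_conj_far D hfar2 h1 h2 (hyP _) (hv e0), inv_mul_cancel_left, herm_smul_left, hv1, mul_one,
      neg_neg] at this
    exact this
  refine su_finish D h32 (Frame.P_all (uFrame D) hw hwS hn hP0) hall fun x hx h0 => ?_
  obtain ⟨t, rfl⟩ := hperp x hx
  rw [herm_smul_left, herm_smul_right, hv1, mul_one, mul_eq_zero] at h0
  rw [h0.elim id (fun h => eq_zero_of_pow_eq_zero h), zero_smul]

/-- The split torus element of `SU₃`. -/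
theorem torus_ok (hF : Fintype.card F = q ^ 2) {e f v : Fin N → F} (he : hermForm N F q e e = 0)
    (hf : hermForm N F q f f = 0) (hv : hermForm N F q v v = 1) (hef : hermForm N F q e f = 1)
    (hve : hermForm N F q v e = 0) (hvf : hermForm N F q v f = 0) {k k' m : F}
    (hkk : k * k' ^ q = 1) (hmm : m * m ^ q = 1) (hdet : k * k' * m = 1) :
    (rankOne q ((k - 1) • e) f * rankOne q ((k' - 1) • f) e * rankOne q ((m - 1) • v) v).det = 1 ∧
      (∀ x, (rankOne q ((k - 1) • e) f * rankOne q ((k' - 1) • f) e * rankOne q ((m - 1) • v) v) *ᵥ x =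
        x + ((k - 1) * hermForm N F q x f) • e + ((k' - 1) * hermForm N F q x e) • f +
          ((m - 1) * hermForm N F q x v) • v) ∧
      ∀ u w, hermForm N F q
        ((rankOne q ((k - 1) • e) f * rankOne q ((k' - 1) • f) e * rankOne q ((m - 1) • v) v) *ᵥ u)
        ((rankOne q ((k - 1) • e) f * rankOne q ((k' - 1) • f) e * rankOne q ((m - 1) • v) v) *ᵥ w) =
        hermForm N F q u w := by
  have hfe : hermForm N F q f e = 1 := by rw [herm_conj hF e f, hef, one_pow]
  have hev := herm_eq_zero_comm hF hve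
  have hfv := herm_eq_zero_comm hF hvf
  have happ : ∀ x, (rankOne q ((k - 1) • e) f * rankOne q ((k' - 1) • f) e * rankOne q ((m - 1) • v) v) *ᵥ x =
      x + ((k - 1) * hermForm N F q x f) • e + ((k' - 1) * hermForm N F q x e) • f +
        ((m - 1) * hermForm N F q x v) • v := fun x => by
    simp only [← Matrix.mulVec_mulVec, rankOne_mulVec, herm_add_left, herm_smul_left, hf, hve, hvf]
    module
  refine ⟨?_, happ, fun u w => ?_⟩
  · rw [Matrix.det_mul, Matrix.det_mul, det_rankOne, det_rankOne, det_rankOne, herm_smul_left, herm_smul_left,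
      herm_smul_left, hef, hfe, hv]
    linear_combination hdet
  · rw [happ, happ]
    have k1 : k' * k ^ q = 1 := by
      have := congrArg (· ^ q) hkk
      simp only [mul_pow, pow_q_q hF, one_pow] at this
      linear_combination this
    simp only [herm_add_left, herm_smul_left, herm_add_right hF, herm_smul_right, he, hf, hv, hef, hfe, hve, hvf,
      hev, hfv, mul_pow, sub_pow_q hF, one_pow]
    rw [herm_conj hF w e, herm_conj hF w f, herm_conj hF w v]
    linear_combination (hermForm N F q u f * hermForm N F q w e ^ q) * hkk +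
      (hermForm N F q u e * hermForm N F q w f ^ q) * k1 +
      (hermForm N F q u v * hermForm N F q w v ^ q) * hmm

theorem su_three (D : UData F N q 1) {v : Fin N → F} (hv : Frame.Perp (uFrame D) v)
    (hv1 : hermForm N F q v v = 1) (hperp : ∀ x, Frame.Perp (uFrame D) x → ∃ t : F, x = t • v)
    (h3 : 3 ≤ q) : ∃ a b : ↥(SU N F q), Subgroup.closure ({a, b} : Set ↥(SU N F q)) = ⊤ := by
  obtain ⟨k, hk, hord, -⟩ := exists_gen_q D.hF
  have hF := D.hF
  have hqq : q + q ≤ q ^ 2 := by nlinarith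
  set m := k ^ (q - 1) with hm
  set k' := (k ^ q)⁻¹ with hk'
  have hkq : k * k ^ (q - 1) = k ^ q := by rw [← pow_succ', Nat.sub_add_cancel (by omega)]
  have hkk : k * k' ^ q = 1 := by rw [hk', inv_pow, pow_q_q hF, mul_inv_cancel₀ hk]
  have hmm : m * m ^ q = 1 := by
    rw [hm, ← pow_mul, ← pow_add, show q - 1 + (q - 1) * q = q ^ 2 - 1 by
      obtain ⟨u, rfl⟩ : ∃ u, q = u + 1 := ⟨q - 1, by omega⟩
      simp only [Nat.add_sub_cancel]
      rw [show (u + 1) ^ 2 = u + u * (u + 1) + 1 by ring, Nat.add_sub_cancel],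
      ← hord, pow_orderOf_eq_one]
  have hdet : k * k' * m = 1 := by
    rw [mul_right_comm, hkq, hk', mul_inv_cancel₀ (pow_ne_zero _ hk)]
  set e : Idx 1 := Sum.inl 0 with he
  set f : Idx 1 := Sum.inr 0 with hf
  have hidx : ∀ i : Idx 1, i = e ∨ i = f := fun i => by
    rcases i with i | i <;> [left; right] <;> rw [Fin.fin_one_eq_zero i]
  obtain ⟨hd1, happ, hiso⟩ := torus_ok hF (D.isotropic e) (D.isotropic f) hv1
    (show hermForm N F q (D.z e) (D.z f) = 1 by rw [D.pairing, if_pos]; rfl) (hv e) (hv f) hkk hmm hdet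
  set z0 := mkSU _ ⟨hd1, hiso⟩
  have ve : hermForm N F q v (D.z e) = 0 := hv e
  have vf : hermForm N F q v (D.z f) = 0 := hv f
  have z0e : sv z0 (D.z e) = k • D.z e := by
    rw [sv_mkSU, happ, D.pairing, D.pairing, if_pos (show f = opp e from rfl), if_neg (opp_ne e).symm,
      herm_eq_zero_comm hF ve]
    module
  have z0f : sv z0 (D.z f) = k' • D.z f := by
    rw [sv_mkSU, happ, D.pairing, D.pairing, if_pos (show e = opp f from rfl), if_neg (opp_ne f).symm,
      herm_eq_zero_comm hF vf]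
    module
  have z0v : sv z0 v = m • v := by
    rw [sv_mkSU, happ, ve, vf, hv1]
    module
  set w := uShift D
  have hw := uShift_isShift D
  set z1 := w * z0 * w⁻¹ with hz1
  have he0 : pos 1 0 = e := by rw [pos_lt (by norm_num)]; rfl
  have he1 : pos 1 1 = f := by rw [pos_ge (by norm_num)]; rfl
  have z1e : sv z1 (D.z e) = k' • D.z e := by
    have := Frame.conj_eigen (uFrame D) (g := w) (hw 1) (h := z0) (c := k') (by rw [he1]; exact z0f)
    rwa [show pos 1 (1 + 1) = e from by rw [← he0]; exact pos_eq_iff.2 (by norm_num)] at this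
  have z1f : sv z1 (D.z f) = k • D.z f := by
    have := Frame.conj_eigen (uFrame D) (g := w) (hw 0) (h := z0) (c := k) (by rw [he0]; exact z0e)
    rwa [zero_add, he1] at this
  have z1v : sv z1 v = m • v := by
    have h : sv w⁻¹ v = v := by
      conv_lhs => rw [← uShift_perp D hv]
      exact sv_inv_sv w v
    rw [hz1, sv_mul, sv_mul, h, z0v, sv_smul, uShift_perp D hv]
  have hcomm : z0 * z1 = z1 * z0 := by
    refine Frame.commute_of_eigen (uFrame D) (fun i => if i = e then k else k') (fun i => if i = e then k' else k)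
      (fun i => ?_) (fun i => ?_) fun x hx => ?_
    · rcases hidx i with rfl | rfl
      · rw [if_pos rfl]; exact z0e
      · rw [if_neg (by simp [e, f])]; exact z0f
    · rcases hidx i with rfl | rfl
      · rw [if_pos rfl]; exact z1e
      · rw [if_neg (by simp [e, f])]; exact z1f
    · obtain ⟨t, rfl⟩ := hperp x hx
      simp only [uFrame_v, sv_smul, z0v, z1v]
  obtain ⟨s, hs⟩ := exists_trace_eq hF (a := (-1 : F)) (by rw [neg_pow_q hF, one_pow])
  have hok : HeisOK D e v s := ⟨hv e, by rw [hv1]; linear_combination hs⟩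
  refine ⟨uU D hok * w, z0, ?_⟩
  set S := Subgroup.closure ({uU D hok * w, z0} : Set ↥(SU N F q))
  have hzS : z0 ∈ S := Subgroup.subset_closure (by simp)
  have hyS : uU D hok * w ∈ S := Subgroup.subset_closure (by simp)
  have hl := closure_pow_top hF hk hord (e := 2 * q - 1) (M := 3) (fun j h => by
    have h2 : (2 * q + 1) * ((2 * q - 1) * j) = 4 * ((q ^ 2 - 1) * j) + 3 * j := by
      obtain ⟨u, rfl⟩ : ∃ u, q = u + 1 := ⟨q - 1, by omega⟩
      rw [show (u + 1) ^ 2 - 1 = u * u + 2 * u by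
        rw [show (u + 1) ^ 2 = u * u + 2 * u + 1 by ring, Nat.add_sub_cancel],
        show 2 * (u + 1) - 1 = 2 * u + 1 by omega]
      ring
    exact (Nat.dvd_add_right (dvd_mul_of_dvd_right (dvd_mul_right _ j) 4)).1 (h2 ▸ dvd_mul_of_dvd_right h _))
    (by omega) (by norm_num)
  have hlam : k ^ q * m = k ^ (2 * q - 1) := by
    rw [hm, ← pow_add, show q + (q - 1) = 2 * q - 1 by omega]
  have hmu : k' ^ q * m ≠ 1 := by
    rw [hk', inv_pow, pow_q_q hF, hm, show q - 1 = (q - 2) + 1 by omega, pow_succ', inv_mul_cancel_left₀ hk]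
    exact pow_ne_one_of_lt hord (by omega) (by omega)
  have hfull : HFull D S e :=
    heis_trick D S hok hzS hyS rfl hcomm hv1 (a := k) (b := k') hk (inv_ne_zero (pow_ne_zero _ hk)) z0e z0v z1e
      z1v (by rw [hlam]; exact hl.1) (by rw [hlam]; exact hl.2) hmu hperp
  have hwS : w ∈ S := by
    have := S.mul_mem (S.inv_mem (hfull v s hok hv)) hyS
    rwa [inv_mul_cancel_left] at this
  refine su_finish D (by omega) (fun p r h => ?_) (HFull.all D hwS (j := 0) (by rw [he0]; exact hfull))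
    fun x hx h0 => ?_
  · exfalso
    obtain ⟨h1, h2⟩ := h
    rcases hidx p with rfl | rfl <;> rcases hidx r with rfl | rfl <;> simp [e, f, opp] at h1 h2
  obtain ⟨t, rfl⟩ := hperp x hx
  rw [herm_smul_left, herm_smul_right, hv1, mul_one, mul_eq_zero] at h0
  rw [h0.elim id (fun h => eq_zero_of_pow_eq_zero h), zero_smul]

/-- `SU_N(q)` is generated by two elements. -/
theorem su_two_generated (hF : Fintype.card F = q ^ 2) (hN : 3 ≤ N) (h32 : N = 3 → q ≠ 2) :
    ∃ a b : ↥(SU N F q), Subgroup.closure ({a, b} : Set ↥(SU N F q)) = ⊤ := by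
  have h32' : ¬ (N = 3 ∧ q = 2) := fun h => h32 h.1 h.2
  rcases Nat.even_or_odd N with ⟨m, hm⟩ | ⟨m, hm⟩
  · haveI : NeZero m := ⟨by omega⟩
    obtain ⟨D, hz, -⟩ := exists_uData hF (m := m) (N := N) (by omega)
    exact su_even D (by omega) (fun x hx => funext fun i => hz x hx i (by omega)) h32'
  · haveI : NeZero m := ⟨by omega⟩
    obtain ⟨D, hz, hz'⟩ := exists_uData hF (m := m) (N := N) (by omega)
    have hq := two_le_q hF
    set last : Fin N := ⟨2 * m, by omega⟩ with hlast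
    have hv : Frame.Perp (uFrame D) (Pi.single last (1 : F)) := fun p => by
      refine herm_eq_zero_comm hF ?_
      show hermForm N F q (D.z p) (Pi.single last 1) = 0
      rw [herm_single_right _ _ (by omega)]
      exact hz' p last le_rfl
    have hv1 : hermForm N F q (Pi.single last (1 : F)) (Pi.single last 1) = 1 := by
      rw [herm_single_single hF, if_pos rfl]
    have hperp : ∀ x, Frame.Perp (uFrame D) x → ∃ t : F, x = t • Pi.single last (1 : F) := fun x hx => by
      refine ⟨x last, funext fun i => ?_⟩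
      rw [Pi.smul_apply, Pi.single_apply, smul_eq_mul]
      split_ifs with h
      · rw [h, mul_one]
      · rw [mul_zero]
        exact hz x hx i (by have := i.isLt; have : i.val ≠ 2 * m := fun e => h (Fin.ext e); omega)
    rcases Nat.lt_or_ge m 2 with h | h
    · obtain rfl : m = 1 := by omega
      exact su_three D hv hv1 hperp (by have := h32 (by omega); omega)
    · exact su_odd D h hv hv1 hperp h32'

end CfsgLib.TwoGenClassical
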