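import Cfsg.Agent.TwoGenClassical.UnitCore

/-! The shift element of `SU` and the consequences of a full Heisenberg group along the frame. -/

set_option autoImplicit false
set_option linter.unusedSectionVars false
set_option linter.unnecessarySeqFocus false
set_option linter.style.haveILetI false

namespace CfsgLib.TwoGenClassical

open Cfsg CfsgLib.Unitary
open scoped Matrix MatrixGroups

variable {F : Type*} [Field F] [Fintype F] {N q n : ℕ} [NeZero n] (D : UData F N q n)

theorem exists_trace_zero_ne (hF : Fintype.card F = q ^ 2) : ∃ c : F, c ≠ 0 ∧ c + c ^ q = 0 := by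
  obtain ⟨l, hl⟩ : ∃ l : F, l ^ q ≠ l := by
    by_contra h
    push Not at h
    have h1 := card_fixed hF
    rw [Nat.card_congr (Equiv.subtypeUnivEquiv h), Nat.card_eq_fintype_card, hF] at h1
    have := two_le_q hF
    nlinarith
  exact ⟨l - l ^ q, sub_ne_zero.2 (Ne.symm hl), by rw [sub_pow_q hF, pow_q_q hF]; ring⟩

theorem trace_zero_eq_sub (hF : Fintype.card F = q ^ 2) {s : F} (hs : s + s ^ q = 0) :
    ∃ u : F, u - u ^ q = s := by
  obtain ⟨l, hl⟩ : ∃ l : F, l ^ q ≠ l := by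
    by_contra h
    push Not at h
    have h1 := card_fixed hF
    rw [Nat.card_congr (Equiv.subtypeUnivEquiv h), Nat.card_eq_fintype_card, hF] at h1
    have := two_le_q hF
    nlinarith
  have h1 : l - l ^ q ≠ 0 := sub_ne_zero.2 (Ne.symm hl)
  refine ⟨s * l / (l - l ^ q), ?_⟩
  have h2 : l ^ q - l ≠ 0 := sub_ne_zero.2 hl
  rw [div_pow, mul_pow, sub_pow_q hF, pow_q_q hF, eq_neg_of_add_eq_zero_right hs]
  field_simp
  ring

/-- A non-zero element of trace zero. -/
noncomputable def tzElt (hF : Fintype.card F = q ^ 2) : F := (exists_trace_zero_ne hF).choose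

theorem tzElt_spec (hF : Fintype.card F = q ^ 2) : tzElt hF ≠ 0 ∧ tzElt hF + tzElt hF ^ q = 0 :=
  (exists_trace_zero_ne hF).choose_spec

theorem tzElt_inv (hF : Fintype.card F = q ^ 2) : -(tzElt hF)⁻¹ + (-(tzElt hF)⁻¹) ^ q = 0 := by
  obtain ⟨h0, h⟩ := tzElt_spec hF
  rw [neg_pow_q hF, inv_pow, eq_neg_of_add_eq_zero_right h, inv_neg]
  ring

/-- The flip of the last pair. -/
noncomputable def uFlip : ↥(SU N F q) :=
  uU D (heisOK_zero D (.inl ⟨n - 1, Nat.sub_lt (NeZero.pos n) Nat.one_pos⟩) (tzElt_spec D.hF).2) *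
    uU D (heisOK_zero D (.inr ⟨n - 1, Nat.sub_lt (NeZero.pos n) Nat.one_pos⟩) (tzElt_inv D.hF)) *
    uU D (heisOK_zero D (.inl ⟨n - 1, Nat.sub_lt (NeZero.pos n) Nat.one_pos⟩) (tzElt_spec D.hF).2)

theorem uT_v {p : Idx n} {s : F} (h : HeisOK D p 0 s) (x : Fin N → F) :
    sv (uU D h) x = x + (s * hermForm N F q x (D.z p)) • D.z p := by
  rw [uU_v, herm_zero_right D.hF, smul_zero, zero_smul, add_zero, sub_zero]

theorem uT_pair {p : Idx n} {s : F} (h : HeisOK D p 0 s) :
    sv (uU D h) (D.z p) = D.z p ∧ sv (uU D h) (D.z (opp p)) = D.z (opp p) + s • D.z p := by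
  constructor
  · rw [uT_v, D.isotropic, mul_zero, zero_smul, add_zero]
  · rw [uT_v, D.pairing, if_pos (opp_opp p).symm, mul_one]

theorem uT_weyl {p : Idx n} {c : F} (hc : c ≠ 0) (h : HeisOK D p 0 c) (h' : HeisOK D (opp p) 0 (-c⁻¹)) :
    sv (uU D h * uU D h' * uU D h) (D.z p) = (-c⁻¹) • D.z (opp p) ∧
      sv (uU D h * uU D h' * uU D h) (D.z (opp p)) = c • D.z p := by
  obtain ⟨a1, a2⟩ := uT_pair D h
  obtain ⟨b1, b2⟩ := uT_pair D h'
  rw [opp_opp] at b2
  constructor
  · rw [sv_mul, sv_mul, a1, b2, sv_add, sv_smul, a1, a2]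
    match_scalars  <;> field_simp <;> ring
  · rw [sv_mul, sv_mul, a2, sv_add, sv_smul, b1, b2, sv_add, sv_smul, sv_add, sv_smul, a1, a2]
    match_scalars <;> field_simp <;> ring

theorem uT_fix {p : Idx n} {s : F} (h : HeisOK D p 0 s) {x : Fin N → F}
    (hx : hermForm N F q x (D.z p) = 0) : sv (uU D h) x = x := by
  rw [uT_v, hx, mul_zero, zero_smul, add_zero]

theorem uFlip_isFlip : Frame.IsFlip (uFrame D) (uFlip D) := by
  have hc := (tzElt_spec D.hF).1
  constructor <;> intro i <;> by_cases hi : i.val + 1 = n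
  · rw [if_pos hi, show i = ⟨n - 1, Nat.sub_lt (NeZero.pos n) Nat.one_pos⟩ from Fin.ext (by simp; omega)]
    refine ⟨_, neg_ne_zero.2 (inv_ne_zero hc), ?_⟩
    exact (uT_weyl D hc _ (heisOK_zero D (opp (Sum.inl _)) (tzElt_inv D.hF))).1
  · rw [if_neg hi]
    have hne : i ≠ ⟨n - 1, Nat.sub_lt (NeZero.pos n) Nat.one_pos⟩ := fun e => hi (by
      rw [e]; simp; have := NeZero.pos n; omega)
    refine ⟨1, one_ne_zero, ?_⟩
    have h1 : ∀ j : Idx n, j ≠ .inl i → j ≠ .inr i →
        hermForm N F q (D.z (.inl i)) (D.z j) = 0 := fun j a b => by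
      rw [D.pairing, if_neg]; simp only [opp, Sum.swap_inl]; exact b
    have j1 := h1 (.inl ⟨n - 1, Nat.sub_lt (NeZero.pos n) Nat.one_pos⟩) (by simpa using Ne.symm hne) (by simp)
    have j2 := h1 (.inr ⟨n - 1, Nat.sub_lt (NeZero.pos n) Nat.one_pos⟩) (by simp) (by simpa using Ne.symm hne)
    rw [uFrame_v, uFrame_z, one_smul, uFlip, sv_mul, sv_mul, uT_fix D _ j1, uT_fix D _ j2, uT_fix D _ j1]
  · rw [if_pos hi, show i = ⟨n - 1, Nat.sub_lt (NeZero.pos n) Nat.one_pos⟩ from Fin.ext (by simp; omega)]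
    refine ⟨_, hc, ?_⟩
    exact (uT_weyl D hc _ (heisOK_zero D (opp (Sum.inl _)) (tzElt_inv D.hF))).2
  · rw [if_neg hi]
    have hne : i ≠ ⟨n - 1, Nat.sub_lt (NeZero.pos n) Nat.one_pos⟩ := fun e => hi (by
      rw [e]; simp; have := NeZero.pos n; omega)
    refine ⟨1, one_ne_zero, ?_⟩
    have h1 : ∀ j : Idx n, j ≠ .inl i → j ≠ .inr i →
        hermForm N F q (D.z (.inr i)) (D.z j) = 0 := fun j a b => by
      rw [D.pairing, if_neg]; simp only [opp, Sum.swap_inr]; exact a
    have j1 := h1 (.inl ⟨n - 1, Nat.sub_lt (NeZero.pos n) Nat.one_pos⟩) (by simpa using Ne.symm hne) (by simp)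
    have j2 := h1 (.inr ⟨n - 1, Nat.sub_lt (NeZero.pos n) Nat.one_pos⟩) (by simp) (by simpa using Ne.symm hne)
    rw [uFrame_v, uFrame_z, one_smul, uFlip, sv_mul, sv_mul, uT_fix D _ j1, uT_fix D _ j2, uT_fix D _ j1]

theorem uFlip_perp {x : Fin N → F} (hx : Frame.Perp (uFrame D) x) : sv (uFlip D) x = x := by
  rw [uFlip, sv_mul, sv_mul, uT_fix D _ (hx _), uT_fix D _ (hx _), uT_fix D _ (hx _)]

/-- The shift element. -/
noncomputable def uShift : ↥(SU N F q) := (uFrame D).cyc (n - 1) * uFlip D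

theorem uShift_isShift : Frame.IsShift (uFrame D) (uShift D) :=
  Frame.isShift_cyc_flip _ (uFlip_isFlip D)

theorem uShift_perp {x : Fin N → F} (hx : Frame.Perp (uFrame D) x) : sv (uShift D) x = x := by
  rw [uShift, sv_mul, uFlip_perp D hx, ← uFrame_v D, Frame.cyc_perp _ hx]

/-- The whole Heisenberg group at `p` lies in `S`. -/
def HFull (S : Subgroup ↥(SU N F q)) (p : Idx n) : Prop :=
  ∀ y s (h : HeisOK D p y s), Frame.Perp (uFrame D) y → uU D h ∈ S

theorem HFull.maps {S : Subgroup ↥(SU N F q)} {g : ↥(SU N F q)} (hg : g ∈ S)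
    (hfix : ∀ x, Frame.Perp (uFrame D) x → sv g x = x) {p p' : Idx n} (hm : Frame.Maps (uFrame D) g p p')
    (hp : HFull D S p) : HFull D S p' := by
  intro y s h hy
  obtain ⟨a, ha, e⟩ := hm
  rw [uFrame_v, uFrame_z, uFrame_z] at e
  have hy0 : Frame.Perp (uFrame D) ((a ^ q)⁻¹ • y) := fun r => by rw [Frame.smul_left, hy r, mul_zero]
  have haq : a ^ q ≠ 0 := pow_ne_zero _ ha
  have haq1 : a ^ (q + 1) ≠ 0 := pow_ne_zero _ ha
  have h0 : HeisOK D p ((a ^ q)⁻¹ • y) (s / a ^ (q + 1)) := by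
    refine ⟨hy0 p, ?_⟩
    rw [herm_smul_left, herm_smul_right, div_pow, inv_pow, pow_q_q D.hF,
      show (a ^ (q + 1)) ^ q = a ^ (q + 1) from norm_pow_q D.hF a]
    field_simp
    rw [pow_succ]
    linear_combination a ^ q * a * h.2
  have := S.mul_mem (S.mul_mem hg (hp _ _ h0 hy0)) (S.inv_mem hg)
  rw [uU_conj D e h0 (heisOK_conj D e ha h0)] at this
  rwa [uU_congr D _ h (by rw [hfix _ hy0, smul_inv_smul₀ haq]) (div_mul_cancel₀ _ haq1)] at this

theorem HFull.all {S : Subgroup ↥(SU N F q)} (hwS : uShift D ∈ S) {j : ℕ} (h : HFull D S (pos n j)) :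
    ∀ p, HFull D S p := by
  have all : ∀ i, HFull D S (pos n (j + i)) := by
    intro i
    induction i with
    | zero => exact h
    | succ i ih => exact HFull.maps D hwS (fun x hx => uShift_perp D hx) (uShift_isShift D _) ih
  intro p
  obtain ⟨k, hk, rfl⟩ := pos_surj p
  have hj := mod_lt' n j
  have := all (k + 2 * n - j % (2 * n))
  rwa [show pos n (j + (k + 2 * n - j % (2 * n))) = pos n k from pos_eq_iff.2 (by
    rw [Nat.add_mod, ← Nat.mod_mod j (2 * n), ← Nat.add_mod, Nat.mod_mod,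
      show j % (2 * n) + (k + 2 * n - j % (2 * n)) = k + 2 * n by omega, Nat.add_mod_right])] at this

/-- Full root groups along the frame generate `SU`. -/
theorem su_finish (h32 : ¬ (N = 3 ∧ q = 2)) {S : Subgroup ↥(SU N F q)}
    (hP : ∀ p r, Far p r → Frame.P (uFrame D) S p r) (hH : ∀ p, HFull D S p)
    (haniso : ∀ x, Frame.Perp (uFrame D) x → hermForm N F q x x = 0 → x = 0) : S = ⊤ := by
  refine su_eq_top D h32 hP (fun p s h => hH p 0 s h (fun r => Frame.zero_left _ _)) ?_ haniso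
  intro p y hy hfar
  set b := hermForm N F q y (D.z p) with hb
  set w := Frame.perpPart (uFrame D) y with hwdef
  have hw : Frame.Perp (uFrame D) w := Frame.perp_perpPart _ _
  obtain ⟨Y, hY⟩ : ∃ Y, Y = (-b⁻¹) • w := ⟨_, rfl⟩
  have hYp : Frame.Perp (uFrame D) Y := fun r => by rw [hY, Frame.smul_left, hw r, mul_zero]
  obtain ⟨s, hs⟩ := exists_trace_eq D.hF (a := -hermForm N F q Y Y)
    (by rw [neg_pow_q D.hF, herm_self_fixed D.hF])
  have hok : HeisOK D p Y s := ⟨hYp p, by linear_combination hs⟩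
  have hv : ∀ r, hermForm N F q (sv (uU D hok) y) (D.z r) =
      b * hermForm N F q Y (D.z r) + hermForm N F q y (D.z r) - hermForm N F q y Y * (if r = opp p then 1 else 0)
        + s * b * (if r = opp p then 1 else 0) := fun r => by
    simp only [uU_v, herm_add_left, herm_sub_left, herm_smul_left, D.pairing, ← hb]
    ring
  refine ⟨uU D hok, hH p _ _ hok hYp, ?_, fun r hr => ?_, fun x hx => ?_⟩
  · rw [hv, show hermForm N F q Y (D.z p) = 0 from hYp p, if_neg (opp_ne p).symm, ← hb]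
    simpa using hy
  · rw [hv, show hermForm N F q Y (D.z r) = 0 from hYp r, hfar r hr, if_neg hr.2]
    ring
  · have hpx : hermForm N F q (D.z p) x = 0 := herm_eq_zero_comm D.hF (hx p)
    simp only [uU_v, herm_add_left, herm_sub_left, herm_smul_left, hpx, ← hb]
    rw [hY, herm_smul_left]
    have e : hermForm N F q y x = hermForm N F q w x := by
      conv_lhs => rw [Frame.eq_frame_add_perp (uFrame D) y]
      rw [herm_add_left, herm_sum_left, Finset.sum_eq_zero (fun r _ => by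
        rw [herm_smul_left, uFrame_z, herm_eq_zero_comm D.hF (hx r), mul_zero]), zero_add]
    rw [e]
    field_simp
    ring

end CfsgLib.TwoGenClassical
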